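import Cfsg.Agent.M11Unique.Graph

/-!
The invariant graph of degree 18 on the 55 Sylow 3-subgroups is the triangular graph T(11):
its neighbourhoods are two cliques.
-/

set_option autoImplicit false
set_option linter.style.haveILetI false
set_option linter.unusedSectionVars false
set_option synthInstance.maxSize 4096

namespace CfsgLib.M11Unique

open CfsgLib.M11Order MulAction
open scoped Pointwise

universe u

theorem dM_ne_zero : ∀ v : V, v ≠ 0 → ap dM v ≠ 0 := by decide +kernel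

theorem e_ne_zero : ((1, 0) : V) ≠ 0 := by decide

theorem unit89 : (82 * 55 : ZMod 89) ≠ 0 := by decide

variable {G : Type u} [Group G] [Fintype G] [IsSimpleGroup G] [Fact (Nat.Prime 3)] {P : Sylow 3 G}

/-- Neighbours of `P`. -/
def Nb (c : Coord G P) (ρ : Rot c) (R : Sylow 3 G) : Prop :=
  ∃ v, R = c.ι v • P₁ c ρ ∨ R = c.ι v • P₂ c ρ

/-- The translated relation. -/
def adj (c : Coord G P) (ρ : Rot c) (R R' : Sylow 3 G) : Prop := ∃ g : G, g • P = R ∧ Nb c ρ (g⁻¹ • R')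

section
variable (h : Nat.card G = 7920) (c : Coord G P) (ρ : Rot c)
include h

theorem nb_ι {v : V} {R : Sylow 3 G} (hR : Nb c ρ R) : Nb c ρ (c.ι v • R) := by
  obtain ⟨w, rfl | rfl⟩ := hR <;> refine ⟨v + w, ?_⟩ <;> simp [c.ι_add, mul_smul]

theorem nb_q {A : M4} (hA : InS A) {R : Sylow 3 G} (hR : Nb c ρ R) : Nb c ρ (c.q A • R) := by
  obtain ⟨w, rfl | rfl⟩ := hR <;> refine ⟨ap A w, ?_⟩ <;> rw [smul_ι_smul c hA] <;>
    rcases q_P₁_cases h c ρ hA with ⟨a, b⟩ | ⟨a, b⟩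
  · exact Or.inl (by rw [a])
  · exact Or.inr (by rw [a])
  · exact Or.inr (by rw [b])
  · exact Or.inl (by rw [b])

theorem nb_N {g : G} (hg : g • P = P) {R : Sylow 3 G} (hR : Nb c ρ R) : Nb c ρ (g • R) := by
  obtain ⟨v, A, hA, rfl⟩ := (c.mem_N g).1 (smul_eq_self_iff.1 hg)
  rw [mul_smul]
  exact nb_ι h c ρ (nb_q h c ρ hA hR)

theorem adj_iff {g : G} {R R' : Sylow 3 G} (hg : g • P = R) : adj c ρ R R' ↔ Nb c ρ (g⁻¹ • R') := by
  refine ⟨fun ⟨k, hk, hN⟩ => ?_, fun hN => ⟨g, hg, hN⟩⟩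
  have := nb_N h c ρ (g := g⁻¹ * k) (by rw [mul_smul, hk, inv_smul_eq_iff, hg]) hN
  rwa [smul_smul, mul_inv_cancel_right] at this

theorem adj_P {R : Sylow 3 G} : adj c ρ P R ↔ Nb c ρ R := by
  rw [adj_iff h c ρ (one_smul G P), inv_one, one_smul]

theorem adj_smul (g : G) {R R' : Sylow 3 G} : adj c ρ (g • R) (g • R') ↔ adj c ρ R R' := by
  obtain ⟨k, rfl⟩ := MulAction.exists_smul_eq G P R
  rw [adj_iff h c ρ (g := g * k) (mul_smul g k P), adj_iff h c ρ (g := k) rfl, mul_inv_rev, mul_smul,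
    inv_smul_smul]

theorem adj_symm {R R' : Sylow 3 G} (hA : adj c ρ R R') : adj c ρ R' R := by
  obtain ⟨g, rfl⟩ := MulAction.exists_smul_eq G P R
  obtain ⟨v, hv⟩ := (adj_iff h c ρ (g := g) rfl).1 hA
  rw [inv_smul_eq_iff, inv_smul_eq_iff] at hv
  have e1 : ρ.r⁻¹ • P = P₂ c ρ := by rw [inv_smul_eq_iff, r_P₂]
  rcases hv with rfl | rfl
  · refine (adj_iff h c ρ (g := g * (c.ι v * ρ.r)) ?_).2 ⟨0, Or.inr ?_⟩
    · rw [mul_smul, mul_smul]; rfl
    · rw [c.ι_zero, one_smul, mul_inv_rev, mul_smul, inv_smul_smul, mul_inv_rev, mul_smul, ← c.ι_neg,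
        ι_smul_self c, e1]
  · refine (adj_iff h c ρ (g := g * (c.ι v * (ρ.r * ρ.r))) ?_).2 ⟨0, Or.inl ?_⟩
    · rw [mul_smul, mul_smul, mul_smul]; rfl
    · rw [c.ι_zero, one_smul, mul_inv_rev, mul_smul, inv_smul_smul, mul_inv_rev, mul_smul, ← c.ι_neg,
        ι_smul_self c, mul_inv_rev, mul_smul, e1, P₂, inv_smul_smul]
      rfl

theorem adj_comm {R R' : Sylow 3 G} : adj c ρ R R' ↔ adj c ρ R' R :=
  ⟨adj_symm h c ρ, adj_symm h c ρ⟩

theorem ι_P₁_inj {v w : V} (e : c.ι v • P₁ c ρ = c.ι w • P₁ c ρ) : v = w :=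
  (translate_inj h c (z_P₁ c ρ) (P₁_ne c ρ) (z_P₁ c ρ) e).1

theorem ι_P₂_inj {v w : V} (e : c.ι v • P₂ c ρ = c.ι w • P₂ c ρ) : v = w :=
  (translate_inj h c (z_P₂ c ρ) (P₂_ne c ρ) (z_P₂ c ρ) e).1

theorem ι_P₁_ne_P₂ {v w : V} : c.ι v • P₁ c ρ ≠ c.ι w • P₂ c ρ := fun e =>
  P₁_ne_P₂ c ρ (translate_inj h c (z_P₁ c ρ) (P₁_ne c ρ) (z_P₂ c ρ) e).2

theorem nb_ne {R : Sylow 3 G} (hR : Nb c ρ R) : R ≠ P := by
  rintro rfl
  obtain ⟨v, e | e⟩ := hR <;> rw [eq_comm, ← eq_inv_smul_iff, ← c.ι_neg, ι_smul_self c] at e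
  exacts [P₁_ne c ρ e, P₂_ne c ρ e]

theorem adj_ne {R R' : Sylow 3 G} (hA : adj c ρ R R') : R' ≠ R := by
  obtain ⟨g, rfl⟩ := MulAction.exists_smul_eq G P R
  intro e
  exact nb_ne h c ρ ((adj_iff h c ρ (g := g) rfl).1 hA) (by rw [e, inv_smul_smul])

theorem ncard_nb : {R | Nb c ρ R}.ncard = 18 := by
  rw [show {R | Nb c ρ R} = (fun v => c.ι v • P₁ c ρ) '' Set.univ ∪ (fun v => c.ι v • P₂ c ρ) '' Set.univ from ?_,
    Set.ncard_union_eq ?_ (Set.toFinite _) (Set.toFinite _),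
    Set.ncard_image_of_injective _ fun v w => ι_P₁_inj h c ρ,
    Set.ncard_image_of_injective _ fun v w => ι_P₂_inj h c ρ, Set.ncard_univ, Nat.card_eq_fintype_card]
  · rfl
  · rw [Set.disjoint_left]
    rintro _ ⟨v, -, rfl⟩ ⟨w, -, e⟩
    exact ι_P₁_ne_P₂ h c ρ e.symm
  · ext R
    simp only [Set.mem_ofPred_eq, Nb, Set.mem_union, Set.image_univ, Set.mem_range, ← exists_or, eq_comm]

theorem degree (R : Sylow 3 G) : {X | adj c ρ R X}.ncard = 18 := by
  obtain ⟨g, rfl⟩ := MulAction.exists_smul_eq G P R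
  rw [← ncard_nb h c ρ, ← Set.ncard_image_of_injective {X | Nb c ρ X} (MulAction.injective g)]
  congr 1
  ext X
  rw [Set.mem_ofPred_eq, adj_iff h c ρ (g := g) rfl]
  exact ⟨fun hX => ⟨_, hX, smul_inv_smul g X⟩, fun ⟨Y, hY, e⟩ => by rw [← e]; simpa using hY⟩

theorem edge_P₁_P₂ : adj c ρ (P₁ c ρ) (P₂ c ρ) := by
  rw [← r_P₁, P₁, adj_smul h c ρ, adj_P h c ρ]
  exact ⟨0, Or.inl (by rw [c.ι_zero, one_smul]; rfl)⟩

theorem adj_translate {v w : V} (X Y : Sylow 3 G) :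
    adj c ρ (c.ι v • X) (c.ι w • Y) ↔ adj c ρ X (c.ι (w - v) • Y) := by
  rw [show c.ι w • Y = c.ι v • c.ι (w - v) • Y by rw [smul_smul, ← c.ι_add, add_sub_cancel], adj_smul h c ρ]

theorem alpha_const {v w : V} (hv : v ≠ 0) (hw : w ≠ 0) :
    (adj c ρ (P₁ c ρ) (c.ι v • P₁ c ρ) ↔ adj c ρ (P₁ c ρ) (c.ι w • P₁ c ρ)) := by
  obtain ⟨M, hM, e⟩ := Q_regular v w hv hw
  have := adj_smul h c ρ (c.q M) (R := P₁ c ρ) (R' := c.ι v • P₁ c ρ)
  rw [smul_ι_smul c hM.1, (q_P h c ρ hM).1, e] at this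
  exact this.symm

theorem beta_const {v w : V} (hv : v ≠ 0) (hw : w ≠ 0) :
    (adj c ρ (P₁ c ρ) (c.ι v • P₂ c ρ) ↔ adj c ρ (P₁ c ρ) (c.ι w • P₂ c ρ)) := by
  obtain ⟨M, hM, e⟩ := Q_regular v w hv hw
  have := adj_smul h c ρ (c.q M) (R := P₁ c ρ) (R' := c.ι v • P₂ c ρ)
  rw [smul_ι_smul c hM.1, (q_P h c ρ hM).1, (q_P h c ρ hM).2, e] at this
  exact this.symm

theorem adj_P₂_P₂ {v : V} :
    adj c ρ (P₂ c ρ) (c.ι v • P₂ c ρ) ↔ adj c ρ (P₁ c ρ) (c.ι (ap dM v) • P₁ c ρ) := by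
  have := adj_smul h c ρ (c.q dM) (R := P₂ c ρ) (R' := c.ι v • P₂ c ρ)
  rw [smul_ι_smul c inS_dM.1, (dM_P h c ρ).2] at this
  exact this.symm

/-- A closed connected set of vertices has cardinality dividing 55. -/
theorem closed_dvd (T : Set (Sylow 3 G)) (hne : T.Nonempty)
    (hcl : ∀ X ∈ T, ∀ Y, adj c ρ X Y → Y ∈ T)
    (hconn : ∀ U : Set (Sylow 3 G), (∀ X ∈ U, ∀ Y, adj c ρ X Y → Y ∈ U) → (T ∩ U).Nonempty → T ⊆ U) :
    T.ncard ∣ 55 := by
  have hB : MulAction.IsBlock G T := by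
    rw [MulAction.isBlock_iff_smul_eq_or_disjoint]
    intro g
    by_cases hd : Disjoint (g • T) T
    · exact Or.inr hd
    obtain ⟨X, hX1, hX2⟩ := Set.not_disjoint_iff.1 hd
    have hsub : T ⊆ g • T := by
      refine hconn (g • T) ?_ ⟨X, hX2, hX1⟩
      rintro _ ⟨X', hX', rfl⟩ Y hY
      refine ⟨g⁻¹ • Y, hcl X' hX' _ ?_, smul_inv_smul g Y⟩
      rwa [← adj_smul h c ρ g, smul_inv_smul]
    exact Or.inl (Set.eq_of_subset_of_ncard_le hsub (le_of_eq (Set.ncard_smul_set g T)) (Set.toFinite _)).symm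
  have := hB.ncard_dvd_card hne
  rwa [card_points h] at this

/-- Both cliques and complete bipartite: impossible. -/
theorem not_alpha_beta (ha : ∀ v : V, v ≠ 0 → adj c ρ (P₁ c ρ) (c.ι v • P₁ c ρ))
    (hb : ∀ v : V, v ≠ 0 → adj c ρ (P₁ c ρ) (c.ι v • P₂ c ρ)) : False := by
  set T : Set (Sylow 3 G) := insert P {R | Nb c ρ R} with hT
  have hb' : ∀ v : V, adj c ρ (P₁ c ρ) (c.ι v • P₂ c ρ) := fun v => by
    by_cases hv : v = 0
    · rw [hv, c.ι_zero, one_smul]; exact edge_P₁_P₂ h c ρ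
    · exact hb v hv
  have key : ∀ X ∈ T, ∀ Y ∈ T, Y ≠ X → adj c ρ X Y := by
    rintro X (rfl | ⟨v, hX⟩) Y (rfl | ⟨w, hY⟩) hne
    · exact absurd rfl hne
    · exact (adj_P h c ρ).2 ⟨w, hY⟩
    · exact adj_symm h c ρ ((adj_P h c ρ).2 ⟨v, hX⟩)
    · rcases hX with rfl | rfl <;> rcases hY with rfl | rfl
      · rw [adj_translate h c ρ]
        exact ha _ fun e => hne (by rw [sub_eq_zero.1 e])
      · rw [adj_translate h c ρ]; exact hb' _
      · rw [adj_comm h c ρ, adj_translate h c ρ]; exact hb' _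
      · rw [adj_translate h c ρ, adj_P₂_P₂ h c ρ]
        exact ha _ (dM_ne_zero _ fun e => hne (by rw [sub_eq_zero.1 e]))
  have hT19 : T.ncard = 19 := by
    rw [hT, Set.ncard_insert_of_notMem (s := {R | Nb c ρ R}) (fun hP => nb_ne h c ρ hP rfl) (Set.toFinite _),
      ncard_nb h c ρ]
  have := closed_dvd h c ρ T ⟨P, Set.mem_insert _ _⟩ ?_ ?_
  · rw [hT19] at this; norm_num at this
  · intro X hX Y hY
    have hsub : T \ {X} ⊆ {Y | adj c ρ X Y} := fun Y hY => key X hX Y hY.1 hY.2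
    have heq := Set.eq_of_subset_of_ncard_le hsub
      (by rw [degree h c ρ, Set.ncard_sdiff_singleton_of_mem hX, hT19]) (Set.toFinite _)
    have : Y ∈ T \ {X} := by rw [heq]; exact hY
    exact this.1
  · rintro U hU ⟨X, hX, hXU⟩ Y hY
    by_cases e : Y = X
    · rwa [e]
    · exact hU X hXU Y (key X hX Y hY e)

/-- Independent neighbourhood halves, completely joined: impossible. -/
theorem not_beta (ha : ∀ v : V, v ≠ 0 → ¬ adj c ρ (P₁ c ρ) (c.ι v • P₁ c ρ))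
    (hb : ∀ v : V, v ≠ 0 → adj c ρ (P₁ c ρ) (c.ι v • P₂ c ρ)) : False := by
  set A : Set (Sylow 3 G) := Set.range fun v => c.ι v • P₁ c ρ with hA
  set B : Set (Sylow 3 G) := Set.range fun v => c.ι v • P₂ c ρ with hB
  set f : Set (Sylow 3 G) → Set (Sylow 3 G) := fun S => (ρ.r • ·) '' S with hf
  have hb' : ∀ v : V, adj c ρ (P₁ c ρ) (c.ι v • P₂ c ρ) := fun v => by
    by_cases hv : v = 0
    · rw [hv, c.ι_zero, one_smul]; exact edge_P₁_P₂ h c ρ
    · exact hb v hv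
  have hAB : ∀ x ∈ A, ∀ y ∈ B, adj c ρ x y := by
    rintro _ ⟨v, rfl⟩ _ ⟨w, rfl⟩
    rw [adj_translate h c ρ]; exact hb' _
  have hBB : ∀ x ∈ B, ∀ y ∈ B, ¬ adj c ρ x y := by
    rintro _ ⟨v, rfl⟩ _ ⟨w, rfl⟩ e
    have hne := adj_ne h c ρ e
    rw [adj_translate h c ρ, adj_P₂_P₂ h c ρ] at e
    exact ha _ (dM_ne_zero _ fun e0 => hne (by rw [sub_eq_zero.1 e0])) e
  have hdis : Disjoint A B := by
    rw [Set.disjoint_left]
    rintro _ ⟨v, rfl⟩ ⟨w, e⟩
    exact ι_P₁_ne_P₂ h c ρ e.symm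
  have hnb : {R | Nb c ρ R} = A ∪ B := by
    ext R
    simp only [Set.mem_ofPred_eq, Nb, Set.mem_union, hA, hB, Set.mem_range, ← exists_or, eq_comm]
  have hBeq : B = f A := by
    refine Set.eq_of_subset_of_ncard_le ?_ (le_of_eq ?_) (Set.toFinite _)
    · rintro y hy
      have h1 : adj c ρ (P₁ c ρ) y := hAB _ ⟨0, by simp [c.ι_zero]⟩ y hy
      have h2 : ρ.r⁻¹ • y ∈ {R | Nb c ρ R} := (adj_iff h c ρ (g := ρ.r) rfl).1 h1
      rw [hnb] at h2
      rcases h2 with h2 | h2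
      · exact ⟨_, h2, smul_inv_smul _ _⟩
      · refine absurd ?_ (hBB (P₂ c ρ) ⟨0, by simp [c.ι_zero]⟩ y hy)
        have h3 := (adj_smul h c ρ ρ.r).2 (hAB (P₁ c ρ) ⟨0, by simp [c.ι_zero]⟩ _ h2)
        rwa [smul_inv_smul, r_P₁] at h3
    · rw [Set.ncard_image_of_injective _ (MulAction.injective ρ.r), hA, hB,
        Set.ncard_range_of_injective fun v w => ι_P₁_inj h c ρ,
        Set.ncard_range_of_injective fun v w => ι_P₂_inj h c ρ]
  have hfX : f (f B) = A := by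
    rw [hBeq]
    ext x
    simp only [hf, Set.mem_image, exists_exists_and_eq_and, smul_smul, ρ.pow3, one_smul, exists_eq_right,
      show ρ.r * (ρ.r * ρ.r) = 1 by rw [← mul_assoc, ρ.pow3]]
  set T : Set (Sylow 3 G) := A ∪ B ∪ f B
  have hBX : ∀ x ∈ B, ∀ y ∈ f B, adj c ρ x y := by
    rintro x hx _ ⟨y, hy, rfl⟩
    rw [hBeq] at hx
    obtain ⟨x, hx, rfl⟩ := hx
    exact (adj_smul h c ρ ρ.r).2 (hAB x hx y hy)
  have hXA : ∀ x ∈ f B, ∀ y ∈ A, adj c ρ x y := by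
    rintro _ ⟨x, hx, rfl⟩ y hy
    rw [← hfX] at hy
    obtain ⟨y, hy, rfl⟩ := hy
    exact (adj_smul h c ρ ρ.r).2 (hBX x hx y hy)
  have hd2 : Disjoint B (f B) := by
    have := (Set.disjoint_image_iff (MulAction.injective ρ.r)).2 hdis
    rwa [show ((ρ.r • ·) '' A : Set (Sylow 3 G)) = B from hBeq.symm] at this
  have hd3 : Disjoint (f B) A := by
    have := (Set.disjoint_image_iff (MulAction.injective ρ.r)).2 hd2
    rwa [show ((ρ.r • ·) '' (f B) : Set (Sylow 3 G)) = A from hfX] at this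
  have hnA : A.ncard = 9 := by
    rw [hA, Set.ncard_range_of_injective fun v w => ι_P₁_inj h c ρ, Nat.card_eq_fintype_card]; rfl
  have hnB : B.ncard = 9 := by
    rw [hBeq, Set.ncard_image_of_injective _ (MulAction.injective ρ.r), hnA]
  have hnX : (f B).ncard = 9 := by rw [Set.ncard_image_of_injective _ (MulAction.injective ρ.r), hnB]
  have nbhd : ∀ x, ∀ S S' : Set (Sylow 3 G), Disjoint S S' → S.ncard = 9 → S'.ncard = 9 →
      (∀ y ∈ S, adj c ρ x y) → (∀ y ∈ S', adj c ρ x y) → ∀ y, adj c ρ x y → y ∈ S ∪ S' := by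
    intro x S S' hd hS hS' h1 h2 y hy
    have heq := Set.eq_of_subset_of_ncard_le (s := S ∪ S') (t := {Y | adj c ρ x Y})
      (fun z hz => hz.elim (h1 z) (h2 z))
      (by rw [degree h c ρ, Set.ncard_union_eq hd (Set.toFinite _) (Set.toFinite _), hS, hS']) (Set.toFinite _)
    rw [heq]; exact hy
  have := closed_dvd h c ρ T ⟨P₁ c ρ, Or.inl (Or.inl ⟨0, by simp [c.ι_zero]⟩)⟩ ?_ ?_
  · rw [Set.ncard_union_eq (Set.disjoint_union_left.2 ⟨hd3.symm, hd2⟩) (Set.toFinite _) (Set.toFinite _),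
      Set.ncard_union_eq hdis (Set.toFinite _) (Set.toFinite _), hnA, hnB, hnX] at this
    norm_num at this
  · rintro x ((hx | hx) | hx) y hy
    · rcases nbhd x B (f B) hd2 hnB hnX (hAB x hx) (fun z hz => adj_symm h c ρ (hXA z hz x hx)) y hy with e | e
      exacts [Or.inl (Or.inr e), Or.inr e]
    · rcases nbhd x A (f B) hd3.symm hnA hnX (fun z hz => adj_symm h c ρ (hAB z hz x hx)) (hBX x hx) y hy with e | e
      exacts [Or.inl (Or.inl e), Or.inr e]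
    · exact Or.inl (nbhd x A B hdis hnA hnB (hXA x hx) (fun z hz => adj_symm h c ρ (hBX z hz x hx)) y hy)
  · rintro U hU ⟨x, hxT, hxU⟩
    have bA : (∃ b ∈ B, b ∈ U) → A ⊆ U := fun ⟨b, hb, hbU⟩ a ha => hU b hbU a (adj_symm h c ρ (hAB a ha b hb))
    have aB : (∃ a ∈ A, a ∈ U) → B ⊆ U := fun ⟨a, ha, haU⟩ b hb => hU a haU b (hAB a ha b hb)
    have aX : (∃ a ∈ A, a ∈ U) → f B ⊆ U := fun ⟨a, ha, haU⟩ b hb => hU a haU b (adj_symm h c ρ (hXA b hb a ha))
    have hAne : ∀ (_ : ∃ a ∈ A, a ∈ U), T ⊆ U := by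
      intro hh
      have hB' := aB hh
      have hA' : A ⊆ U := bA ⟨P₂ c ρ, ⟨0, by simp [c.ι_zero]⟩, hB' ⟨0, by simp [c.ι_zero]⟩⟩
      exact Set.union_subset (Set.union_subset hA' hB') (aX hh)
    rcases hxT with (hx | hx) | hx
    · exact hAne ⟨x, hx, hxU⟩
    · exact hAne ⟨P₁ c ρ, ⟨0, by simp [c.ι_zero]⟩, bA ⟨x, hx, hxU⟩ ⟨0, by simp [c.ι_zero]⟩⟩
    · exact hAne ⟨P₁ c ρ, ⟨0, by simp [c.ι_zero]⟩, hU x hxU _ (hXA x hx _ ⟨0, by simp [c.ι_zero]⟩)⟩

/-- Both parts independent and unjoined: a strongly regular graph with irrational eigenvalues of equal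
multiplicity, impossible. -/
theorem not_none (ha : ∀ v : V, v ≠ 0 → ¬ adj c ρ (P₁ c ρ) (c.ι v • P₁ c ρ))
    (hb : ∀ v : V, v ≠ 0 → ¬ adj c ρ (P₁ c ρ) (c.ι v • P₂ c ρ)) : False := by
  classical
  haveI : Fintype (Sylow 3 G) := Fintype.ofFinite _
  let K : Sylow 3 G → Sylow 3 G → ℕ := fun X Z => {Y | adj c ρ X Y ∧ adj c ρ Z Y}.ncard
  have Ksmul : ∀ (g : G) X Z, K (g • X) (g • Z) = K X Z := by
    intro g X Z
    show _ = {Y | adj c ρ X Y ∧ adj c ρ Z Y}.ncard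
    rw [← Set.ncard_image_of_injective {Y | adj c ρ X Y ∧ adj c ρ Z Y} (MulAction.injective g)]
    refine congrArg Set.ncard (Set.ext fun Y => ⟨fun ⟨h1, h2⟩ => ⟨g⁻¹ • Y, ⟨?_, ?_⟩, smul_inv_smul g Y⟩, ?_⟩)
    · rwa [← adj_smul h c ρ g, smul_inv_smul]
    · rwa [← adj_smul h c ρ g, smul_inv_smul]
    · rintro ⟨Y, ⟨h1, h2⟩, rfl⟩
      exact ⟨(adj_smul h c ρ g).2 h1, (adj_smul h c ρ g).2 h2⟩
  have hedge : ∀ Z, Nb c ρ Z → K P Z = 1 := by
    have h1 : K P (P₁ c ρ) = 1 := by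
      refine Set.ncard_eq_one.2 ⟨P₂ c ρ, Set.ext fun Y => ⟨fun ⟨h1, h2⟩ => ?_, ?_⟩⟩
      · obtain ⟨v, rfl | rfl⟩ := (adj_P h c ρ).1 h1
        · refine absurd h2 (ha v fun e => adj_ne h c ρ h2 (by rw [e, c.ι_zero, one_smul]))
        · by_cases hv : v = 0
          · rw [hv, c.ι_zero, one_smul]; rfl
          · exact absurd h2 (hb v hv)
      · rintro rfl
        exact ⟨(adj_P h c ρ).2 ⟨0, Or.inr (by rw [c.ι_zero, one_smul])⟩, edge_P₁_P₂ h c ρ⟩
    rintro Z ⟨v, rfl | rfl⟩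
    · have := Ksmul (c.ι v) P (P₁ c ρ)
      rwa [ι_smul_self c, h1] at this
    · have := Ksmul (c.ι v * c.q dM) P (P₁ c ρ)
      rwa [mul_smul, mul_smul, q_smul_self c inS_dM.1, ι_smul_self c, (dM_P h c ρ).1, h1] at this
  have hPP : K P P = 18 := by
    show {Y | adj c ρ P Y ∧ adj c ρ P Y}.ncard = 18
    simp only [and_self]; exact degree h c ρ P
  -- the other subgroups form one orbit of the normalizer
  have hfar : ∀ Z Z', (Z ≠ P ∧ ¬ Nb c ρ Z) → (Z' ≠ P ∧ ¬ Nb c ρ Z') → K P Z = K P Z' := by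
    have rep : ∀ Z, (Z ≠ P ∧ ¬ Nb c ρ Z) → ∃ v R, (zc c • R = R ∧ R ≠ P ∧ R ≠ P₁ c ρ ∧ R ≠ P₂ c ρ) ∧
        c.ι v • R = Z := by
      rintro Z ⟨hZ, hn⟩
      obtain ⟨v, R, hz, hR, rfl⟩ := exists_translate h c hZ
      exact ⟨v, R, ⟨hz, hR, fun e => hn ⟨v, Or.inl (by rw [e])⟩, fun e => hn ⟨v, Or.inr (by rw [e])⟩⟩, rfl⟩
    intro Z Z' hZ hZ'
    obtain ⟨v, R, hR, rfl⟩ := rep Z hZ
    obtain ⟨w, R', hR', rfl⟩ := rep Z' hZ'
    obtain ⟨A, hA, rfl⟩ := outer_orbit h c ρ hR hR'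
    have e1 := Ksmul (c.ι v) P R
    have e2 := Ksmul (c.ι w * c.q A) P R
    rw [ι_smul_self c] at e1
    rw [mul_smul, mul_smul, q_smul_self c hA, ι_smul_self c] at e2
    rw [e1, e2]
  have hsum : ∀ X, ∑ Z, K X Z = 324 := by
    intro X
    have e : ∀ Z, K X Z = ∑ Y ∈ Finset.univ.filter (adj c ρ X), (if adj c ρ Z Y then 1 else 0) := by
      intro Z
      show {Y | adj c ρ X Y ∧ adj c ρ Z Y}.ncard = _
      rw [← Finset.card_filter, Finset.filter_filter, ← Set.ncard_coe_finset]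
      congr 1
      ext Y; simp
    have hdeg : ∀ Y, (Finset.univ.filter fun Z => adj c ρ Z Y).card = 18 := by
      intro Y
      rw [← degree h c ρ Y, ← Set.ncard_coe_finset]
      congr 1
      ext Z; simp [adj_comm h c ρ]
    simp only [e]
    rw [Finset.sum_comm, Finset.sum_congr rfl fun Y _ => by rw [← Finset.card_filter, hdeg Y],
      Finset.sum_const, smul_eq_mul]
    have : (Finset.univ.filter (adj c ρ X)).card = 18 := by
      rw [← degree h c ρ X, ← Set.ncard_coe_finset]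
      congr 1
      ext Z; simp
    rw [this]
  have hmu : ∀ Z, (Z ≠ P ∧ ¬ Nb c ρ Z) → K P Z = 8 := by
    intro Z₀ hZ₀
    have e : ∀ Z, K P Z = (if Z = P then 18 else 0) + (if Nb c ρ Z then 1 else 0) +
        (if Z ≠ P ∧ ¬ Nb c ρ Z then K P Z₀ else 0) := by
      intro Z
      by_cases h1 : Z = P
      · subst h1
        rw [if_pos rfl, if_neg (fun hN => nb_ne h c ρ hN rfl), if_neg (fun hN => hN.1 rfl), hPP]
      · by_cases h2 : Nb c ρ Z
        · rw [if_neg h1, if_pos h2, if_neg (fun hN => hN.2 h2), hedge Z h2]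
        · rw [if_neg h1, if_neg h2, if_pos ⟨h1, h2⟩, zero_add, zero_add, hfar Z Z₀ ⟨h1, h2⟩ hZ₀]
    have hs := hsum P
    rw [Finset.sum_congr rfl fun Z _ => e Z, Finset.sum_add_distrib, Finset.sum_add_distrib,
      Finset.sum_ite_eq', if_pos (Finset.mem_univ _), ← Finset.card_filter, Finset.sum_ite, Finset.sum_const,
      Finset.sum_const_zero, add_zero, smul_eq_mul] at hs
    have c1 : (Finset.univ.filter (Nb c ρ)).card = 18 := by
      rw [← ncard_nb h c ρ, ← Set.ncard_coe_finset]; congr 1; ext Z; simp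
    have c2 : (Finset.univ.filter fun Z => Z ≠ P ∧ ¬ Nb c ρ Z).card = 36 := by
      have e3 : (Finset.univ.filter fun Z => Z ≠ P ∧ ¬ Nb c ρ Z) =
          (insert P (Finset.univ.filter (Nb c ρ)))ᶜ := by ext Z; simp
      rw [e3, Finset.card_compl, Finset.card_insert_of_notMem (by simpa using fun hN => nb_ne h c ρ hN rfl), c1,
        ← Nat.card_eq_fintype_card, card_points h]
    rw [c1, c2] at hs
    omega
  let a : Sylow 3 G → Sylow 3 G → ZMod 89 := fun X Y => if adj c ρ X Y then 1 else 0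
  let N : Matrix (Sylow 3 G) (Sylow 3 G) (ZMod 89) :=
    fun X Y => 55 * a X Y + 55 * 48 * (if X = Y then 1 else 0) - 66
  have hsum_a : ∀ X, ∑ Y, a X Y = 18 := by
    intro X
    simp only [a, Finset.sum_boole]
    rw [show (Finset.univ.filter fun Y => adj c ρ X Y).card = 18 by
      rw [← degree h c ρ X, ← Set.ncard_coe_finset]; congr 1; ext Z; simp]
    rfl
  have hNN : N * N = 0 := by
    ext X Z
    rw [Matrix.mul_apply, Matrix.zero_apply]
    have hex : ∀ Y, N X Y * N Y Z = 3025 * (a X Y * a Z Y) + 55 * 55 * 48 * (if Y = Z then a X Y else 0) +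
        55 * 55 * 48 * (if X = Y then a Z Y else 0) + 55 * 48 * (55 * 48) * (if X = Y then (if Y = Z then 1 else 0) else 0)
        - 66 * 55 * (a X Y + a Z Y) - 66 * 55 * 48 * ((if X = Y then 1 else 0) + (if Y = Z then 1 else 0)) + 66 * 66 := by
      intro Y
      have ea : a Y Z = a Z Y := by simp only [a, adj_comm h c ρ (R := Y)]
      simp only [N, ea]
      split_ifs <;> ring
    rw [Finset.sum_congr rfl fun Y _ => hex Y]
    simp only [Finset.sum_add_distrib, Finset.sum_sub_distrib, ← Finset.mul_sum, Finset.sum_const,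
      Finset.card_univ, ← Nat.card_eq_fintype_card, card_points h, hsum_a, Finset.sum_ite_eq,
      Finset.sum_ite_eq', Finset.mem_univ, if_true]
    have hK : ∑ Y, a X Y * a Z Y = (K X Z : ZMod 89) := by
      show _ = (({Y | adj c ρ X Y ∧ adj c ρ Z Y}.ncard : ℕ) : ZMod 89)
      simp only [a, mul_ite, mul_one, mul_zero, ← ite_and, Finset.sum_boole]
      rw [← Set.ncard_coe_finset]
      congr 2
      ext Y; simp [and_comm]
    rw [hK]
    have ea : a Z X = a X Z := by simp only [a, adj_comm h c ρ (R := Z)]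
    rw [ea]
    obtain ⟨g, rfl⟩ := MulAction.exists_smul_eq G P X
    obtain ⟨Z, rfl⟩ : ∃ Z', g • Z' = Z := ⟨g⁻¹ • Z, smul_inv_smul g Z⟩
    rw [Ksmul, show a (g • P) (g • Z) = if Nb c ρ Z then 1 else 0 by simp only [a, adj_smul h c ρ, adj_P h c ρ]]
    by_cases h1 : Z = P
    · subst h1
      rw [if_neg (fun hN => nb_ne h c ρ hN rfl), if_pos rfl, hPP]
      decide
    · have h1' : g • P ≠ g • Z := fun e => h1 (smul_left_cancel g e).symm
      by_cases h2 : Nb c ρ Z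
      · rw [if_pos h2, if_neg h1', hedge Z h2]; decide
      · rw [if_neg h2, if_neg h1', hmu Z ⟨h1, h2⟩]; decide
  have htr : Matrix.trace N = 82 * 55 := by
    have : ∀ X, Matrix.diag N X = 82 := by
      intro X
      show N X X = 82
      simp only [N, a, if_neg (fun e => adj_ne h c ρ (R := X) (R' := X) e rfl), if_pos]
      decide
    rw [Matrix.trace, Finset.sum_congr rfl fun X _ => this X, Finset.sum_const, Finset.card_univ,
      ← Nat.card_eq_fintype_card, card_points h]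
    decide
  have hnil := Matrix.isNilpotent_trace_of_isNilpotent (M := N) ⟨2, by rw [pow_two, hNN]⟩
  haveI : Fact (Nat.Prime 89) := ⟨by norm_num⟩
  rw [htr] at hnil
  exact unit89 hnil.eq_zero

/-- The neighbourhood of `P` consists of two cliques joined by a matching. -/
theorem adj_structure {v : V} (hv : v ≠ 0) :
    adj c ρ (P₁ c ρ) (c.ι v • P₁ c ρ) ∧ ¬ adj c ρ (P₁ c ρ) (c.ι v • P₂ c ρ) := by
  have h1 := e_ne_zero
  by_cases ha : adj c ρ (P₁ c ρ) (c.ι (1, 0) • P₁ c ρ) <;>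
    by_cases hb : adj c ρ (P₁ c ρ) (c.ι (1, 0) • P₂ c ρ)
  · exact (not_alpha_beta h c ρ (fun w hw => (alpha_const h c ρ h1 hw).1 ha)
      (fun w hw => (beta_const h c ρ h1 hw).1 hb)).elim
  · exact ⟨(alpha_const h c ρ h1 hv).1 ha, fun e => hb ((beta_const h c ρ h1 hv).2 e)⟩
  · exact (not_beta h c ρ (fun w hw e => ha ((alpha_const h c ρ h1 hw).2 e))
      (fun w hw => (beta_const h c ρ h1 hw).1 hb)).elim
  · exact (not_none h c ρ (fun w hw e => ha ((alpha_const h c ρ h1 hw).2 e))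
      (fun w hw e => hb ((beta_const h c ρ h1 hw).2 e))).elim

end

end CfsgLib.M11Unique
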