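import Cfsg.Agent.M11Unique.Model
import Cfsg.Agent.M11Order.Sylow
import Cfsg.Agent.SylowToolkit.Counting
import Cfsg.Agent.Sieve.Card7920Graph

/-!
Groups of order 7920 with the same values of the same-order counts as a simple one are simple.
-/

set_option autoImplicit false
set_option linter.style.haveILetI false

namespace CfsgLib.M11Unique

open MulAction
open scoped Pointwise

universe u v

theorem sylow_eleven_options {G : Type u} [Group G] [Finite G] [Fact (Nat.Prime 11)] (h : Nat.card G = 7920) :
    Nat.card (Sylow 11 G) = 1 ∨ Nat.card (Sylow 11 G) = 12 ∨ Nat.card (Sylow 11 G) = 45 ∨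
      Nat.card (Sylow 11 G) = 144 := by
  have hmem := CfsgLib.SylowToolkit.card_sylow_mem_candidates (p := 11) (G := G) (k := 1) (m := 720)
    (by rw [h]; norm_num) (by norm_num)
  have key : ∀ n ∈ (720 : ℕ).divisors.filter (fun n => n % 11 = 1), n = 1 ∨ n = 12 ∨ n = 45 ∨ n = 144 := by
    decide +kernel
  exact key _ hmem

/-- The elements of one order, modulo eleven, are those commuting with an element of order eleven. -/
theorem count_mod_eleven {G : Type u} [Group G] [Finite G] [Fact (Nat.Prime 11)] {x : G} (hx : orderOf x = 11)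
    (n : ℕ) : Nat.card {g : G // orderOf g = n} % 11 = Nat.card {g : G // orderOf g = n ∧ x * g = g * x} % 11 := by
  let ψ : Subgroup.zpowers x →* Equiv.Perm {g : G // orderOf g = n} :=
    { toFun := fun a => (MulAut.conj (a : G)).toEquiv.subtypeEquiv fun g => by
        rw [show orderOf ((MulAut.conj (a : G)).toEquiv g) = orderOf g from
          orderOf_injective (MulAut.conj (a : G)).toMonoidHom (MulAut.conj (a : G)).injective g]
      map_one' := Equiv.ext fun g => Subtype.ext (by simp)
      map_mul' := fun a b => Equiv.ext fun g => Subtype.ext (by simp [mul_assoc]) }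
  letI : MulAction (Subgroup.zpowers x) {g : G // orderOf g = n} := MulAction.compHom _ ψ
  have hp : IsPGroup 11 (Subgroup.zpowers x) :=
    IsPGroup.of_card (n := 1) (by rw [Nat.card_zpowers, hx, pow_one])
  have h := hp.card_modEq_card_fixedPoints {g : G // orderOf g = n}
  refine h.trans (congrArg (· % 11) (Nat.card_congr ?_))
  refine
    { toFun := fun g => ⟨g.1.1, g.1.2, ?_⟩
      invFun := fun g => ⟨⟨g.1, g.2.1⟩, fun a => ?_⟩
      left_inv := fun g => rfl
      right_inv := fun g => rfl }
  · exact mul_inv_eq_iff_eq_mul.1 (congrArg Subtype.val (g.2 ⟨x, Subgroup.mem_zpowers x⟩))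
  · obtain ⟨k, hk⟩ := Subgroup.mem_zpowers_iff.1 a.2
    refine Subtype.ext ?_
    show (a : G) * g.1 * (a : G)⁻¹ = g.1
    rw [← hk]
    exact mul_inv_eq_iff_eq_mul.2 ((show Commute x g.1 from g.2.2).zpow_left k).eq

/-- Apart from `1` and the elements of order eleven, the counts in a simple group of order 7920 are multiples
of eleven. -/
theorem count_simple {M : Type u} [Group M] [Finite M] [IsSimpleGroup M] (h : Nat.card M = 7920) (n : ℕ) :
    Nat.card {g : M // orderOf g = n} = 1 ∨ Nat.card {g : M // orderOf g = n} = 1440 ∨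
      Nat.card {g : M // orderOf g = n} % 11 = 0 := by
  haveI : Fact (Nat.Prime 11) := ⟨by norm_num⟩
  haveI := Fintype.ofFinite M
  rcases eq_or_ne n 1 with rfl | h1
  · haveI : Unique {g : M // orderOf g = 1} :=
      ⟨⟨⟨1, orderOf_one⟩⟩, fun g => Subtype.ext (orderOf_eq_one_iff.mp g.2)⟩
    exact Or.inl Nat.card_unique
  rcases eq_or_ne n 11 with rfl | h11
  · refine Or.inr (Or.inl ?_)
    rw [CfsgLib.SylowToolkit.card_orderOf_eq_prime (m := 720) (by rw [h]) (by norm_num),
      CfsgLib.M11Order.card_sylow_eleven h]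
  obtain ⟨x, hx⟩ := exists_prime_orderOf_dvd_card' (G := M) 11 (by rw [h]; norm_num)
  refine Or.inr (Or.inr ?_)
  rw [count_mod_eleven hx n]
  haveI : IsEmpty {g : M // orderOf g = n ∧ x * g = g * x} := by
    refine ⟨fun g => ?_⟩
    have hC := CfsgLib.M11Order.centralizer_eleven h hx
    have hmem : g.1 ∈ Subgroup.zpowers x := hC ▸ Subgroup.mem_centralizer_singleton_iff.2 g.2.2.symm
    have hd := Subgroup.orderOf_dvd_natCard (s := Subgroup.zpowers x) hmem
    rw [Nat.card_zpowers, hx, g.2.1] at hd
    rcases (Nat.dvd_prime (by norm_num)).1 hd with e | e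
    exacts [h1 e, h11 e]
  rw [Nat.card_of_isEmpty]

/-- A group of order 7920 with the values of the same-order counts of a simple one is simple. -/
theorem isSimpleGroup_of_counts {G : Type u} {M : Type v} [Group G] [Group M] [Finite G] [Finite M]
    [IsSimpleGroup M] (hG : Nat.card G = 7920) (hM : Nat.card M = 7920)
    (hnse : ∀ n, 0 < Nat.card {g : G // orderOf g = n} →
      ∃ k, Nat.card {g : G // orderOf g = n} = Nat.card {g : M // orderOf g = k}) : IsSimpleGroup G := by
  haveI : Fact (Nat.Prime 11) := ⟨by norm_num⟩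
  have hval : ∀ n, 0 < Nat.card {g : G // orderOf g = n} → Nat.card {g : G // orderOf g = n} = 1 ∨
      Nat.card {g : G // orderOf g = n} = 1440 ∨ Nat.card {g : G // orderOf g = n} % 11 = 0 := fun n hn => by
    obtain ⟨k, hk⟩ := hnse n hn
    rw [hk]; exact count_simple hM k
  have e11 : Nat.card {g : G // orderOf g = 11} = Nat.card (Sylow 11 G) * 10 :=
    CfsgLib.SylowToolkit.card_orderOf_eq_prime (m := 720) (by rw [hG]) (by norm_num)
  have hn : Nat.card (Sylow 11 G) = 144 := by
    have hv := hval 11 (by rw [e11]; exact Nat.mul_pos Nat.card_pos (by norm_num))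
    rw [e11] at hv
    rcases sylow_eleven_options hG with e | e | e | e <;> rw [e] at hv <;> first | exact e | norm_num at hv
  have hC : ∀ y : G, orderOf y = 11 → ∀ g : G, y * g = g * y → ∀ b, b.Prime → b ≠ 11 → orderOf g ≠ b := by
    intro y hy g hcm b hb hb11 hgb
    obtain ⟨P, hP⟩ := (IsPGroup.of_card (n := 1) (show Nat.card (Subgroup.zpowers y) = 11 ^ 1 by
      rw [Nat.card_zpowers, hy, pow_one])).exists_le_sylow
    have hP11 : Nat.card (P : Subgroup G) = 11 := by
      rw [CfsgLib.SylowToolkit.card_sylow_subgroup_eq (k := 1) (m := 720) (by rw [hG]; norm_num) (by norm_num) P,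
        pow_one]
    have hPe : Subgroup.zpowers y = (P : Subgroup G) :=
      Subgroup.eq_of_le_of_card_ge hP (by rw [hP11, Nat.card_zpowers, hy])
    set C := Subgroup.centralizer ({y} : Set G)
    have hCN : C ≤ Subgroup.normalizer ((P : Subgroup G) : Set G) := by
      rw [← hPe]
      refine le_trans (fun a ha => ?_) (Subgroup.centralizer_le_normalizer _)
      refine Subgroup.mem_centralizer_iff.2 fun z hz => ?_
      obtain ⟨k, rfl⟩ := Subgroup.mem_zpowers_iff.1 hz
      exact ((show Commute y a from (Subgroup.mem_centralizer_singleton_iff.1 ha).symm).zpow_left k).eq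
    have hN55 := CfsgLib.SylowToolkit.card_normalizer_mul P
    rw [hn, hG] at hN55
    have hd := Subgroup.card_dvd_of_le hCN
    rw [show Nat.card (Subgroup.normalizer ((P : Subgroup G) : Set G)) = 55 by omega] at hd
    have hyC : y ∈ C := Subgroup.mem_centralizer_singleton_iff.2 rfl
    have hgC : g ∈ C := Subgroup.mem_centralizer_singleton_iff.2 hcm.symm
    have hprod : orderOf (y * g) = 11 * b := by
      rw [Commute.orderOf_mul_eq_mul_orderOf_of_coprime hcm
        (by rw [hy, hgb]; exact (Nat.coprime_primes (by norm_num) hb).2 hb11.symm), hy, hgb]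
    have h55 : orderOf (y * g) ∣ 55 := (Subgroup.orderOf_dvd_natCard (s := C) (mul_mem hyC hgC)).trans hd
    rw [hprod] at h55
    have hb5 : b = 5 := by
      have : b ∣ 5 := Nat.dvd_of_mul_dvd_mul_left (by norm_num : 0 < 11) (by simpa using h55)
      exact (Nat.prime_dvd_prime_iff_eq hb Nat.prime_five).1 this
    subst hb5
    -- a cyclic centralizer of order 55 makes the count of elements of order 55 congruent to 7
    have hC55 : Nat.card C = 55 := by
      refine Nat.dvd_antisymm hd ?_
      have := Subgroup.orderOf_dvd_natCard (s := C) (mul_mem hyC hgC)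
      rwa [hprod] at this
    haveI : IsCyclic C := isCyclic_of_orderOf_eq_card ⟨y * g, mul_mem hyC hgC⟩ (by
      rw [Subgroup.orderOf_mk, hprod, hC55])
    have h40 : Nat.card {u : G // orderOf u = 55 ∧ y * u = u * y} = 40 := by
      haveI := Fintype.ofFinite C
      classical
      have := IsCyclic.card_orderOf_eq_totient (α := C) (d := 55) (by rw [← Nat.card_eq_fintype_card, hC55])
      rw [← Fintype.card_subtype, ← Nat.card_eq_fintype_card, show Nat.totient 55 = 40 by decide] at this
      rw [← this]
      exact Nat.card_congr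
        { toFun := fun u => ⟨⟨u.1, Subgroup.mem_centralizer_singleton_iff.2 u.2.2.symm⟩,
            by rw [Subgroup.orderOf_mk]; exact u.2.1⟩
          invFun := fun u => ⟨u.1.1, by rw [Subgroup.orderOf_coe]; exact u.2,
            (Subgroup.mem_centralizer_singleton_iff.1 u.1.2).symm⟩
          left_inv := fun u => rfl
          right_inv := fun u => rfl }
    have hmod := count_mod_eleven hy 55
    rw [h40] at hmod
    have hpos : 0 < Nat.card {u : G // orderOf u = 55} := by
      haveI : Nonempty {u : G // orderOf u = 55} := ⟨⟨y * g, hprod⟩⟩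
      exact Nat.card_pos
    rcases hval 55 hpos with e | e | e <;> rw [e] at hmod <;> norm_num at hmod
  refine CfsgLib.Card7920.main hG {11} ⟨11, rfl, by norm_num, by rw [hG]; norm_num⟩
    ⟨2, by simp, Nat.prime_two, by rw [hG]; norm_num⟩ ?_
  rintro a rfl b hb hap hbp - - ⟨g, hg⟩
  have hg0 : orderOf g ≠ 0 := (orderOf_pos g).ne'
  have h1 : orderOf (g ^ b) = 11 := by
    rw [orderOf_pow' g hbp.ne_zero, hg, Nat.gcd_mul_left_left, Nat.mul_div_cancel _ hbp.pos]
  have h2 : orderOf (g ^ 11) = b := by
    rw [orderOf_pow' g (by norm_num), hg, Nat.gcd_mul_right_left, Nat.mul_div_cancel_left _ (by norm_num)]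
  exact hC _ h1 _ ((Commute.refl g).pow_pow b 11).eq b hbp (fun e => hb e) h2

end CfsgLib.M11Unique
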