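import Cfsg.Agent.M11Unique.Local

/-!
The seven Sylow 3-subgroups normalized by an involution in a simple group of order 7920, and the
resulting orbits of a normalizer.
-/

set_option autoImplicit false
set_option linter.style.haveILetI false

namespace CfsgLib.M11Unique

open CfsgLib.M11Order CfsgLib.Chars MulAction
open scoped Pointwise ComplexConjugate

universe u

variable {G : Type u} [Group G] [Fintype G] [IsSimpleGroup G]

theorem isConj_involutions (h : Nat.card G = 7920) {x y : G} (hx : orderOf x = 2) (hy : orderOf y = 2) :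
    IsConj x y := by
  classical
  obtain ⟨T⟩ := exists_table h
  obtain ⟨-, hvx, x4, x5, x6, x7, x8, x9⟩ := involution_values h T hx
  obtain ⟨-, hvy, y4, y5, y6, y7, y8, y9⟩ := involution_values h T hy
  by_contra hnc
  have h2 := sum_irr_mul_conj x y
  rw [if_neg hnc, sum_table T, sum_ten] at h2
  simp only [T.one, oneChar_apply, map_one, x4, x5, x6, x7, x8, x9, y4, y5, y6, y7, y8, y9] at h2
  rcases hvx with ⟨a1, a2, a3⟩ | ⟨a1, a2, a3⟩ | ⟨a1, a2, a3⟩ <;>
    rcases hvy with ⟨b1, b2, b3⟩ | ⟨b1, b2, b3⟩ | ⟨b1, b2, b3⟩ <;>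
    simp only [a1, a2, a3, b1, b2, b3, map_neg, map_ofNat, map_zero] at h2 <;> norm_num at h2

theorem card_centralizer_involution (h : Nat.card G = 7920) {x : G} (hx : orderOf x = 2) :
    Nat.card (Subgroup.centralizer ({x} : Set G)) = 48 := by
  obtain ⟨T⟩ := exists_table h
  exact (involution_values h T hx).1

theorem card_involutions (h : Nat.card G = 7920) {x : G} (hx : orderOf x = 2) :
    Nat.card {t : G // orderOf t = 2} = 165 := by
  have e : Nat.card {t : G // orderOf t = 2} = Nat.card (MulAction.orbit (ConjAct G) x) := by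
    refine Nat.card_congr (Equiv.subtypeEquivRight fun t => ?_)
    rw [ConjAct.mem_orbit_conjAct]
    refine ⟨fun ht => isConj_involutions h ht hx, fun hc => ?_⟩
    obtain ⟨k, rfl⟩ := isConj_iff.1 hc.symm
    rw [← hx]
    exact orderOf_injective (MulAut.conj k).toMonoidHom (MulAut.conj k).injective x
  have h1 := Nat.card_congr (MulAction.orbitProdStabilizerEquivGroup (ConjAct G) x)
  rw [Nat.card_prod, ← e] at h1
  have h2 : Nat.card (MulAction.stabilizer (ConjAct G) x) = 48 := by
    rw [← card_centralizer_involution h hx]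
    exact Nat.card_congr (Equiv.subtypeEquiv ConjAct.ofConjAct.toEquiv fun g => by
      rw [MulAction.mem_stabilizer_iff, Subgroup.mem_centralizer_singleton_iff, ConjAct.smul_def]
      exact mul_inv_eq_iff_eq_mul)
  rw [h2, show Nat.card (ConjAct G) = 7920 from h] at h1
  omega

theorem card_points (h : Nat.card G = 7920) : Nat.card (Sylow 3 G) = 55 := by
  haveI : Fact (Nat.Prime 3) := ⟨Nat.prime_three⟩
  obtain ⟨T⟩ := exists_table h
  obtain ⟨P⟩ : Nonempty (Sylow 3 G) := inferInstance
  have h1 := CfsgLib.SylowToolkit.card_normalizer_mul P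
  rw [card_normalizer_three h T P, h] at h1
  omega

section
variable [Fact (Nat.Prime 3)] {P : Sylow 3 G} (h : Nat.card G = 7920) (c : Coord G P)

omit [IsSimpleGroup G] in
theorem smul_eq_self_iff {g : G} : g • P = P ↔ g ∈ Subgroup.normalizer ((P : Subgroup G) : Set G) :=
  Sylow.smul_eq_iff_mem_normalizer

include h

omit [IsSimpleGroup G] h in
theorem ι_smul_self (v : V) : c.ι v • P = P :=
  smul_eq_self_iff.2 (Subgroup.le_normalizer (c.ι_mem v))

omit [IsSimpleGroup G] h in
theorem q_smul_self {A : M4} (hA : InS A) : c.q A • P = P := smul_eq_self_iff.2 (c.q_mem hA)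

/-- A nontrivial element of `P` normalizes no other Sylow 3-subgroup. -/
theorem eq_of_ι_fix {v : V} {R : Sylow 3 G} (hv : c.ι v • R = R) (hv0 : v ≠ 0) : R = P := by
  obtain ⟨T⟩ := exists_table h
  have hx : c.ι v ∈ (P : Subgroup G) := c.ι_mem v
  have hxR : c.ι v ∈ (R : Subgroup G) := by
    have hN := Sylow.smul_eq_iff_mem_normalizer.1 hv
    have hp : IsPGroup 3 (Subgroup.zpowers (c.ι v)) := P.isPGroup'.to_le (Subgroup.zpowers_le.2 hx)
    have := hp.inf_normalizer_sylow R
    rw [inf_eq_left.2 (Subgroup.zpowers_le.2 hN)] at this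
    exact Subgroup.zpowers_le.1 (inf_eq_left.1 this.symm)
  have h3 : orderOf (c.ι v) = 3 := orderOf_eq_prime (exponent_sylow_three h P hx)
    fun e => hv0 (c.ι_inj (e.trans c.ι_zero.symm))
  have hC := centralizer_three h T h3
  have key : ∀ S : Sylow 3 G, c.ι v ∈ (S : Subgroup G) →
      (S : Subgroup G) ≤ Subgroup.centralizer ({c.ι v} : Set G) := fun S hS a ha =>
    Subgroup.mem_centralizer_singleton_iff.2
      (congrArg Subtype.val ((card_sylow_three_subgroup h S).2.is_comm.comm
        (⟨a, ha⟩ : (S : Subgroup G)) ⟨_, hS⟩))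
  have hN : Subgroup.centralizer ({c.ι v} : Set G) ≤ Subgroup.normalizer ((P : Subgroup G) : Set G) := by
    refine (Subgroup.normal_subgroupOf_iff_le_normalizer (key P hx)).1
      (Subgroup.normal_of_index_eq_two (show (P : Subgroup G).relIndex _ = 2 from ?_))
    have hi := Subgroup.relIndex_mul_relIndex (⊥ : Subgroup G) (P : Subgroup G) _ bot_le (key P hx)
    rw [Subgroup.relIndex_bot_left, Subgroup.relIndex_bot_left, (card_sylow_three_subgroup h P).1, hC] at hi
    omega
  have hle : (R : Subgroup G) ≤ Subgroup.normalizer ((P : Subgroup G) : Set G) := (key R hxR).trans hN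
  have := R.isPGroup'.inf_normalizer_sylow P
  exact (Sylow.ext (R.is_maximal' P.isPGroup' (inf_eq_left.1 (this.symm.trans (inf_eq_left.2 hle))))).symm

/-- The central involution. -/
def zc (c : Coord G P) : G := c.q neg4

omit [IsSimpleGroup G] h in
theorem orderOf_zc : orderOf (zc c) = 2 := by
  haveI : Fact (Nat.Prime 2) := ⟨Nat.prime_two⟩
  refine orderOf_eq_prime ?_ fun e => neg_ne (c.coord_eq_one inS_neg (v := 0) (by rw [c.ι_zero, one_mul]; exact e)).2
  rw [zc, sq, ← c.q_mul _ _ inS_neg inS_neg]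
  exact (congrArg c.q (by decide : mm neg4 neg4 = one4)).trans c.q_one

/-- Seven fixed Sylow subgroups. -/
theorem card_fixed : Nat.card {R : Sylow 3 G // zc c • R = R} = 7 := by
  classical
  haveI := Fintype.ofFinite (Sylow 3 G)
  have hz := orderOf_zc c
  -- involutions of the normalizer of `P`
  have h21 : Nat.card {t : {t : G // orderOf t = 2} // t.1 • P = P} = 21 := by
    rw [← involution_count, ← Fintype.card_subtype, ← Nat.card_eq_fintype_card]
    refine (Nat.card_eq_of_bijective
      (fun x : {x : V × M4 // InS x.2 ∧ mm x.2 x.2 = one4 ∧ x.1 + ap x.2 x.1 = 0 ∧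
        ¬ (x.1 = 0 ∧ x.2 = one4)} => (⟨⟨c.ι x.1.1 * c.q x.1.2, ?_⟩, ?_⟩ :
          {t : {t : G // orderOf t = 2} // t.1 • P = P})) ⟨?_, ?_⟩).symm
    · obtain ⟨hA, h2, h3, h4⟩ := x.2
      haveI : Fact (Nat.Prime 2) := ⟨Nat.prime_two⟩
      refine orderOf_eq_prime ?_ fun e => h4 (c.coord_eq_one hA e)
      rw [sq, c.mul_coord hA hA, h2, h3, c.ι_zero, c.q_one, one_mul]
    · exact smul_eq_self_iff.2 ((c.mem_N _).2 ⟨_, _, x.2.1, rfl⟩)
    · rintro ⟨⟨v, A⟩, hA⟩ ⟨⟨w, B⟩, hB⟩ e
      obtain ⟨e1, e2⟩ := c.unique v w A B hA.1 hB.1 (congrArg (fun t => (t.1.1 : G)) e)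
      exact Subtype.ext (Prod.ext e1 e2)
    · rintro ⟨⟨t, ht⟩, htP⟩
      obtain ⟨v, A, hA, rfl⟩ := (c.mem_N t).1 (smul_eq_self_iff.1 htP)
      have ht2 : c.ι v * c.q A * (c.ι v * c.q A) = 1 := by rw [← sq, ← ht, pow_orderOf_eq_one]
      rw [c.mul_coord hA hA] at ht2
      obtain ⟨e1, e2⟩ := c.coord_eq_one (inS_mm A hA A hA) ht2
      refine ⟨⟨(v, A), hA, e2, e1, fun ⟨e3, e4⟩ => ?_⟩, rfl⟩
      simp only at e3 e4
      rw [e3, e4, c.ι_zero, c.q_one, one_mul, orderOf_one] at ht
      norm_num at ht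
  haveI : Fintype {t : G // orderOf t = 2} := Fintype.ofFinite _
  have hconst : ∀ R : Sylow 3 G, Nat.card {t : {t : G // orderOf t = 2} // t.1 • R = R} = 21 := by
    intro R
    obtain ⟨g, rfl⟩ := MulAction.exists_smul_eq G P R
    rw [← h21]
    refine (Nat.card_congr (Equiv.subtypeEquiv
      (Equiv.subtypeEquiv (MulAut.conj g).toEquiv fun t => ?_) fun t => ?_)).symm
    · rw [show orderOf ((MulAut.conj g).toEquiv t) = orderOf t from
        orderOf_injective (MulAut.conj g).toMonoidHom (MulAut.conj g).injective t]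
    · show t.1 • P = P ↔ (g * t.1 * g⁻¹) • g • P = g • P
      rw [smul_smul, inv_mul_cancel_right, mul_smul, smul_left_cancel_iff]
  have hfib : ∀ t : {t : G // orderOf t = 2},
      Nat.card {R : Sylow 3 G // t.1 • R = R} = Nat.card {R : Sylow 3 G // zc c • R = R} := by
    intro t
    obtain ⟨k, hk⟩ := isConj_iff.1 (isConj_involutions h hz t.2)
    refine (Nat.card_congr (Equiv.subtypeEquiv (MulAction.toPerm k) fun R => ?_)).symm
    show zc c • R = R ↔ t.1 • k • R = k • R
    rw [← hk, smul_smul, inv_mul_cancel_right, mul_smul, smul_left_cancel_iff]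
  have hsum : ∑ t : {t : G // orderOf t = 2}, Nat.card {R : Sylow 3 G // t.1 • R = R} =
      ∑ R : Sylow 3 G, Nat.card {t : {t : G // orderOf t = 2} // t.1 • R = R} := by
    simp only [Nat.card_eq_fintype_card, Fintype.card_subtype, Finset.card_filter]
    exact Finset.sum_comm
  rw [Finset.sum_congr rfl fun t _ => hfib t, Finset.sum_congr rfl fun R _ => hconst R, Finset.sum_const,
    Finset.sum_const, Finset.card_univ, Finset.card_univ, ← Nat.card_eq_fintype_card,
    ← Nat.card_eq_fintype_card, card_involutions h hz, card_points h, smul_eq_mul, smul_eq_mul] at hsum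
  omega

omit [IsSimpleGroup G] h in
theorem smul_ι_smul {A : M4} (hA : InS A) (v : V) (R : Sylow 3 G) :
    c.q A • c.ι v • R = c.ι (ap A v) • c.q A • R := by rw [smul_smul, smul_smul, c.q_swap hA]

/-- Translates of fixed Sylow subgroups are distinct. -/
theorem translate_inj {R R' : Sylow 3 G} (hR : zc c • R = R) (hRP : R ≠ P) (hR' : zc c • R' = R') {v w : V}
    (e : c.ι v • R = c.ι w • R') : v = w ∧ R = R' := by
  have e2 : R' = c.ι (-w + v) • R := by
    rw [c.ι_add, mul_smul, e, c.ι_neg, inv_smul_smul]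
  set u : V := -w + v with hu
  rw [zc] at hR hR'
  rw [e2, smul_ι_smul c inS_neg, hR] at hR'
  have h0 : ap neg4 u + -u = 0 := by
    by_contra h0
    refine hRP (eq_of_ι_fix h c (v := -u + ap neg4 u) ?_ (by rwa [add_comm]))
    rw [c.ι_add, mul_smul, hR', c.ι_neg, inv_smul_smul]
  have hu0 : u = 0 := fix_neg u (by rwa [← sub_eq_add_neg, sub_eq_zero] at h0)
  refine ⟨?_, by rw [e2, hu0, c.ι_zero, one_smul]⟩
  rw [hu, neg_add_eq_zero] at hu0
  exact hu0.symm

/-- Every other Sylow subgroup is a translate of a fixed one. -/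
theorem exists_translate {R : Sylow 3 G} (hR : R ≠ P) :
    ∃ v, ∃ R', zc c • R' = R' ∧ R' ≠ P ∧ c.ι v • R' = R := by
  classical
  haveI := Fintype.ofFinite (Sylow 3 G)
  let f : V × {R : Sylow 3 G // zc c • R = R ∧ R ≠ P} → {R : Sylow 3 G // R ≠ P} := fun x =>
    ⟨c.ι x.1 • x.2.1, fun e => x.2.2.2 (by rwa [← eq_inv_smul_iff, ← c.ι_neg, ι_smul_self c] at e)⟩
  have hf : Function.Bijective f := by
    refine (Nat.bijective_iff_injective_and_card f).2 ⟨?_, ?_⟩
    · rintro ⟨v, R₁⟩ ⟨w, R₂⟩ e
      obtain ⟨e1, e2⟩ := translate_inj h c R₁.2.1 R₁.2.2 R₂.2.1 (congrArg Subtype.val e)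
      exact Prod.ext e1 (Subtype.ext e2)
    · rw [Nat.card_prod]
      have h6 : Nat.card {R : Sylow 3 G // zc c • R = R ∧ R ≠ P} = 6 := by
        rw [Nat.card_congr (Equiv.subtypeSubtypeEquivSubtypeInter (fun R : Sylow 3 G => zc c • R = R)
          (fun R => R ≠ P)).symm, Nat.card_eq_fintype_card,
          Fintype.card_congr (Equiv.subtypeEquivRight (q := fun R : {R : Sylow 3 G // zc c • R = R} =>
            R ≠ ⟨P, q_smul_self c inS_neg⟩) fun R => by simp [Subtype.ext_iff]),
          Fintype.card_subtype_compl, Fintype.card_subtype_eq, ← Nat.card_eq_fintype_card, card_fixed h c]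
      rw [h6, Nat.card_eq_fintype_card (α := {R : Sylow 3 G // R ≠ P}), Fintype.card_subtype_compl,
        Fintype.card_subtype_eq, ← Nat.card_eq_fintype_card, card_points h]
      simp [Nat.card_prod]
  obtain ⟨⟨v, R'⟩, e⟩ := hf.2 ⟨R, hR⟩
  exact ⟨v, R'.1, R'.2.1, R'.2.2, congrArg Subtype.val e⟩

end

end CfsgLib.M11Unique
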