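import Cfsg.Agent.M11Unique.Fix

/-!
The rotation of the three Sylow 3-subgroups in the orbit of an involution centralizer, and the
G-invariant graph of degree 18 on the 55 Sylow 3-subgroups.
-/

set_option autoImplicit false
set_option linter.style.haveILetI false
set_option linter.unusedSectionVars false
set_option synthInstance.maxSize 4096

namespace CfsgLib.M11Unique

open CfsgLib.M11Order MulAction
open scoped Pointwise

universe u

theorem coset_cases : ∀ A, InS A →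
    InC A ∨ InC (mm dM A) ∨ InC (mm jM A) ∨ InC (mm (mm dM jM) A) := by decide +kernel

theorem inC_inS : ∀ A, InC A → InS A := by decide +kernel

theorem inC_squares : ∀ A, InC A → ∃ B, InS B ∧ mm B B = A := by decide +kernel

/-- Membership in a subgroup of index at most two above the cyclic group, by two bits. -/
def bitsMem (d j : Bool) (A : M4) : Prop :=
  InC A ∨ (InC (mm dM A) ∧ d = true) ∨ (InC (mm jM A) ∧ j = true) ∨ (InC (mm (mm dM jM) A) ∧ d = j)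

instance (d j : Bool) (A : M4) : Decidable (bitsMem d j A) := inferInstanceAs (Decidable (_ ∨ _))

theorem bits_choice : ∀ d j : Bool,
    ((Finset.univ.filter fun A => InS A ∧ bitsMem d j A ∧ mm A A = one4 ∧ A ≠ one4 ∧ A ≠ neg4).card % 3 = 0 ∧
      (Finset.univ.filter fun A => InS A ∧ bitsMem d j A ∧ mm A A = neg4 ∧ A ≠ one4 ∧ A ≠ neg4).card % 3 = 0) →
    d = false ∧ j = true := by decide +kernel

theorem double_neg : ∀ u : V, u + u + ap neg4 u = u := by decide +kernel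

theorem bits_Q : ∀ A, InS A → (bitsMem false true A ↔ InQ A) := by decide +kernel

theorem dM_centralizer_count :
    (Finset.univ.filter fun x : V × M4 =>
      InS x.2 ∧ x.1 + ap x.2 0 = 0 + ap dM x.1 ∧ mm x.2 dM = mm dM x.2).card = 12 := by decide +kernel

variable {G : Type u} [Group G] [Fintype G] [IsSimpleGroup G] [Fact (Nat.Prime 3)] {P : Sylow 3 G}

/-- An element of order three in the centralizer of the central involution. -/
structure Rot (c : Coord G P) where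
  r : G
  pow3 : r * r * r = 1
  comm : r * zc c = zc c * r
  moves : r • P ≠ P

section
variable (h : Nat.card G = 7920) (c : Coord G P)
include h

theorem q_inj {A B : M4} (hA : InS A) (hB : InS B) (e : c.q A = c.q B) : A = B :=
  (c.unique 0 0 A B hA hB (by rw [e])).2

omit h in
/-- The centralizer of the central involution meets the normalizer in the complement. -/
theorem exists_q {g : G} (hP : g • P = P) (hz : g * zc c = zc c * g) : ∃ A, InS A ∧ g = c.q A := by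
  obtain ⟨v, A, hA, rfl⟩ := (c.mem_N g).1 (smul_eq_self_iff.1 hP)
  refine ⟨A, hA, ?_⟩
  have e : c.ι v * c.q (mm A neg4) = c.ι (ap neg4 v) * c.q (mm neg4 A) := by
    rw [c.q_mul _ _ hA inS_neg, c.q_mul _ _ inS_neg hA, ← mul_assoc, ← mul_assoc, ← c.q_swap inS_neg,
      mul_assoc (c.q neg4)]
    exact hz
  have hv := (c.unique _ _ _ _ (inS_mm A hA _ inS_neg) (inS_mm _ inS_neg A hA) e).1
  rw [fix_neg v hv.symm, c.ι_zero, one_mul]

omit h in
theorem q_comm_z {A : M4} (hA : InS A) : c.q A * zc c = zc c * c.q A := by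
  rw [zc, ← c.q_mul _ _ hA inS_neg, ← c.q_mul _ _ inS_neg hA, mm_neg A hA]

theorem exists_rot : Nonempty (Rot c) := by
  obtain ⟨⟨r, hr⟩, ho⟩ := exists_prime_orderOf_dvd_card' (G := Subgroup.centralizer ({zc c} : Set G)) 3
    (by rw [card_centralizer_involution h (orderOf_zc c)]; norm_num)
  rw [Subgroup.orderOf_mk] at ho
  have h3 : r * r * r = 1 := by rw [← pow_orderOf_eq_one r, ho, pow_succ, pow_two]
  have hcm : r * zc c = zc c * r := Subgroup.mem_centralizer_singleton_iff.1 hr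
  refine ⟨⟨r, h3, hcm, fun hP => ?_⟩⟩
  obtain ⟨A, hA, rfl⟩ := exists_q c hP hcm
  have hA3 : ∀ B, (InS B ∧ mm (mm B B) B = one4) → B = one4 := by decide +kernel
  have e : c.q (mm (mm A A) A) = c.q one4 := by
    rw [c.q_mul _ _ (inS_mm A hA A hA) hA, c.q_mul _ _ hA hA, h3, c.q_one]
  rw [hA3 A ⟨hA, q_inj h c (inS_mm _ (inS_mm A hA A hA) _ hA) inS_one e⟩, c.q_one, orderOf_one] at ho
  norm_num at ho

variable (ρ : Rot c)

/-- The first rotated subgroup. -/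
def P₁ : Sylow 3 G := ρ.r • P

/-- The second rotated subgroup. -/
def P₂ : Sylow 3 G := ρ.r • ρ.r • P

omit h in
theorem r_P₁ : ρ.r • P₁ c ρ = P₂ c ρ := rfl

omit h in
theorem r_P₂ : ρ.r • P₂ c ρ = P := by rw [P₂, smul_smul, smul_smul, ρ.pow3, one_smul]

omit h in
theorem P₁_ne : P₁ c ρ ≠ P := ρ.moves

omit h in
theorem P₂_ne : P₂ c ρ ≠ P := fun e => ρ.moves (by
  have := congrArg (ρ.r • ·) e
  simp only [r_P₂] at this
  exact this.symm)

omit h in
theorem P₁_ne_P₂ : P₁ c ρ ≠ P₂ c ρ := fun e => ρ.moves (smul_left_cancel ρ.r e).symm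

omit h in
theorem z_P₁ : zc c • P₁ c ρ = P₁ c ρ := by
  rw [P₁, smul_smul, ← ρ.comm, mul_smul, zc, q_smul_self c inS_neg]

omit h in
theorem z_P₂ : zc c • P₂ c ρ = P₂ c ρ := by
  rw [← r_P₁, smul_smul, ← ρ.comm, mul_smul, z_P₁]

/-- The stabilizer of `P` in the centralizer of the central involution. -/
theorem card_SD : Nat.card (Subgroup.centralizer ({zc c} : Set G) ⊓ MulAction.stabilizer G P : Subgroup G) = 16 := by
  rw [← card_inS, ← Fintype.card_subtype, ← Nat.card_eq_fintype_card]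
  refine (Nat.card_eq_of_bijective (fun A : {A // InS A} => (⟨c.q A.1, ?_, ?_⟩ :
    ↥(Subgroup.centralizer ({zc c} : Set G) ⊓ MulAction.stabilizer G P))) ⟨?_, ?_⟩).symm
  · exact Subgroup.mem_centralizer_singleton_iff.2 (q_comm_z c A.2)
  · exact q_smul_self c A.2
  · exact fun A B e => Subtype.ext (q_inj h c A.2 B.2 (congrArg Subtype.val e))
  · rintro ⟨g, hg1, hg2⟩
    obtain ⟨A, hA, rfl⟩ := exists_q c (MulAction.mem_stabilizer_iff.1 hg2)
      (Subgroup.mem_centralizer_singleton_iff.1 hg1)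
    exact ⟨⟨A, hA⟩, rfl⟩

theorem orbit_C {g : G} (hg : g * zc c = zc c * g) :
    g • P = P ∨ g • P = P₁ c ρ ∨ g • P = P₂ c ρ := by
  classical
  set C := Subgroup.centralizer ({zc c} : Set G)
  have hr : ρ.r ∈ C := Subgroup.mem_centralizer_singleton_iff.2 ρ.comm
  have hst : Nat.card (MulAction.stabilizer C P) = 16 := by
    refine Eq.trans (Nat.card_congr ⟨fun x => (⟨x.1.1, x.1.2, x.2⟩ : ↥(C ⊓ MulAction.stabilizer G P)),
      fun y => ⟨⟨y.1, y.2.1⟩, y.2.2⟩, fun x => rfl, fun y => rfl⟩) (card_SD h c)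
  have h1 := Nat.card_congr (MulAction.orbitProdStabilizerEquivGroup C P)
  rw [Nat.card_prod, hst, card_centralizer_involution h (orderOf_zc c)] at h1
  have hor : ({P, P₁ c ρ, P₂ c ρ} : Set (Sylow 3 G)) = MulAction.orbit C P := by
    refine Set.eq_of_subset_of_ncard_le ?_ ?_ (Set.toFinite _)
    · rintro X (rfl | rfl | rfl)
      · exact MulAction.mem_orbit_self _
      · exact ⟨⟨ρ.r, hr⟩, rfl⟩
      · exact ⟨⟨ρ.r * ρ.r, mul_mem hr hr⟩, mul_smul ρ.r ρ.r P⟩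
    · rw [show ({P, P₁ c ρ, P₂ c ρ} : Set (Sylow 3 G)).ncard = 3 from Set.ncard_eq_three.2
        ⟨_, _, _, (P₁_ne c ρ).symm, (P₂_ne c ρ).symm, P₁_ne_P₂ c ρ, rfl⟩, ← Nat.card_coe_set_eq]
      omega
  have : g • P ∈ MulAction.orbit C P := ⟨⟨g, Subgroup.mem_centralizer_singleton_iff.2 hg⟩, rfl⟩
  rw [← hor] at this
  exact this

theorem q_P₁_cases {A : M4} (hA : InS A) :
    (c.q A • P₁ c ρ = P₁ c ρ ∧ c.q A • P₂ c ρ = P₂ c ρ) ∨
      (c.q A • P₁ c ρ = P₂ c ρ ∧ c.q A • P₂ c ρ = P₁ c ρ) := by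
  have hg : ∀ g : G, g * zc c = zc c * g → c.q A • g • P ≠ P →
      c.q A • g • P = P₁ c ρ ∨ c.q A • g • P = P₂ c ρ := by
    intro g hgc hne
    rw [← mul_smul] at hne ⊢
    exact (orbit_C h c ρ (by rw [mul_assoc, hgc, ← mul_assoc, q_comm_z c hA, mul_assoc])).resolve_left hne
  have hne : ∀ X, X ≠ P → c.q A • X ≠ P := fun X hX e => hX (smul_left_cancel (c.q A)
    (e.trans (q_smul_self c hA).symm))
  rcases hg ρ.r ρ.comm (hne _ (P₁_ne c ρ)) with e1 | e1
  · refine Or.inl ⟨e1, ?_⟩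
    rcases hg (ρ.r * ρ.r) (by rw [mul_assoc, ρ.comm, ← mul_assoc, ρ.comm, mul_assoc])
      (by rw [mul_smul]; exact hne _ (P₂_ne c ρ)) with e2 | e2
    · rw [mul_smul] at e2
      exact absurd (smul_left_cancel _ (e1.trans e2.symm)) (P₁_ne_P₂ c ρ)
    · rwa [mul_smul] at e2
  · refine Or.inr ⟨e1, ?_⟩
    rcases hg (ρ.r * ρ.r) (by rw [mul_assoc, ρ.comm, ← mul_assoc, ρ.comm, mul_assoc])
      (by rw [mul_smul]; exact hne _ (P₂_ne c ρ)) with e2 | e2
    · rwa [mul_smul] at e2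
    · rw [mul_smul] at e2
      exact absurd (smul_left_cancel _ (e1.trans e2.symm)) (P₁_ne_P₂ c ρ)

theorem q_fix_mm {A B : M4} (hA : InS A) (hB : InS B) :
    (c.q (mm A B) • P₁ c ρ = P₁ c ρ ↔ (c.q A • P₁ c ρ = P₁ c ρ ↔ c.q B • P₁ c ρ = P₁ c ρ)) := by
  rw [c.q_mul _ _ hA hB, mul_smul]
  rcases q_P₁_cases h c ρ hA with ⟨a1, a2⟩ | ⟨a1, a2⟩ <;>
    rcases q_P₁_cases h c ρ hB with ⟨b1, b2⟩ | ⟨b1, b2⟩ <;>
    simp [a1, a2, b1, (P₁_ne_P₂ c ρ).symm]

theorem q_fix_C {A : M4} (hA : InC A) : c.q A • P₁ c ρ = P₁ c ρ := by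
  obtain ⟨B, hB, rfl⟩ := inC_squares A hA
  exact (q_fix_mm h c ρ hB hB).2 Iff.rfl

/-- A commuting pair of involutions in a group whose order is not divisible by four coincides. -/
theorem eq_z_of_comm {a : G} (ha : a * a = 1) (ha1 : a ≠ 1) (hr : a * ρ.r = ρ.r * a)
    (hz : a * zc c = zc c * a) : a = zc c := by
  haveI : Fact (Nat.Prime 2) := ⟨Nat.prime_two⟩
  by_contra hne
  obtain ⟨T⟩ := exists_table h
  have hr3 : orderOf ρ.r = 3 := orderOf_eq_prime (by rw [pow_succ, pow_two, ρ.pow3])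
    fun e => ρ.moves (by rw [e, one_smul])
  set H := Subgroup.zpowers a ⊔ Subgroup.zpowers (zc c) with hH
  have hle : H ≤ Subgroup.centralizer ({ρ.r} : Set G) := sup_le
    (Subgroup.zpowers_le.2 (Subgroup.mem_centralizer_singleton_iff.2 hr))
    (Subgroup.zpowers_le.2 (Subgroup.mem_centralizer_singleton_iff.2 ρ.comm.symm))
  have h2 : ∀ x : G, orderOf x = 2 → IsPGroup 2 (Subgroup.zpowers x) := fun x hx =>
    IsPGroup.of_card (n := 1) (by rw [Nat.card_zpowers, hx, pow_one])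
  have hp : IsPGroup 2 H := (h2 a (orderOf_eq_prime (by rw [pow_two, ha]) ha1)).to_sup_of_normal_right'
    (h2 _ (orderOf_zc c)) (Subgroup.zpowers_le.2 (Subgroup.centralizer_le_normalizer _
      (Subgroup.mem_centralizer_iff.2 fun x hx => by
        obtain ⟨k, rfl⟩ := Subgroup.mem_zpowers_iff.1 hx
        exact ((show Commute a (zc c) from hz).zpow_right k).eq.symm)))
  obtain ⟨n, hn⟩ := IsPGroup.iff_card.1 hp
  have hd := Subgroup.card_dvd_of_le hle
  rw [centralizer_three h T hr3, hn] at hd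
  have hn1 : n ≤ 1 := by
    by_contra hn1
    have : 2 ^ 2 ∣ 18 := (pow_dvd_pow 2 (by omega)).trans hd
    norm_num at this
  have h3 : ({1, a, zc c} : Set G).ncard ≤ Nat.card H := by
    rw [← SetLike.coe_sort_coe, Nat.card_coe_set_eq]
    refine Set.ncard_le_ncard ?_ (Set.toFinite _)
    rintro x (rfl | rfl | rfl)
    · exact one_mem _
    · exact Subgroup.mem_sup_left (Subgroup.mem_zpowers _)
    · exact Subgroup.mem_sup_right (Subgroup.mem_zpowers _)
  rw [Set.ncard_eq_three.2 ⟨_, _, _, ha1.symm, ?_, hne, rfl⟩, hn] at h3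
  · have := Nat.pow_le_pow_right (show 1 ≤ 2 by norm_num) hn1
    omega
  · intro e
    have := orderOf_zc c
    rw [← e, orderOf_one] at this
    norm_num at this

theorem fix_count (X : M4) (hX : X = one4 ∨ X = neg4) :
    Nat.card {A : M4 // InS A ∧ c.q A • P₁ c ρ = P₁ c ρ ∧ mm A A = X ∧ A ≠ one4 ∧ A ≠ neg4} % 3 = 0 := by
  classical
  set α := {A : M4 // InS A ∧ c.q A • P₁ c ρ = P₁ c ρ ∧ mm A A = X ∧ A ≠ one4 ∧ A ≠ neg4}
  have hXS : InS X := by rcases hX with rfl | rfl <;> decide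
  have hXr : ρ.r * c.q X * ρ.r⁻¹ = c.q X := by
    rcases hX with rfl | rfl
    · rw [c.q_one]; group
    · show ρ.r * zc c * ρ.r⁻¹ = zc c
      rw [ρ.comm, mul_inv_cancel_right]
  have ri : ρ.r⁻¹ • P = P₂ c ρ ∧ ρ.r⁻¹ • P₁ c ρ = P := ⟨by rw [inv_smul_eq_iff, r_P₂], by rw [P₁, inv_smul_smul]⟩
  have hex : ∀ A : α, ∃ B : α, c.q B.1 = ρ.r * c.q A.1 * ρ.r⁻¹ := by
    rintro ⟨A, hA, hfix, hsq, h1, h2⟩
    have hfix2 : c.q A • P₂ c ρ = P₂ c ρ :=
      ((q_P₁_cases h c ρ hA).resolve_right fun e => P₁_ne_P₂ c ρ (hfix.symm.trans e.1)).2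
    obtain ⟨B, hB, eB⟩ := exists_q c (g := ρ.r * c.q A * ρ.r⁻¹)
      (by rw [mul_smul, mul_smul, ri.1, hfix2, r_P₂])
      (by
        have hi : ρ.r⁻¹ * zc c = zc c * ρ.r⁻¹ := by
          rw [inv_mul_eq_iff_eq_mul, ← mul_assoc, ρ.comm, mul_inv_cancel_right]
        rw [mul_assoc, hi, ← mul_assoc, mul_assoc ρ.r, q_comm_z c hA, ← mul_assoc, ρ.comm]
        simp only [mul_assoc])
    have back : ∀ Y, InS Y → ρ.r * c.q Y * ρ.r⁻¹ = c.q Y → B = Y → A = Y := fun Y hY hYr e => by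
      refine q_inj h c hA hY ?_
      have e2 : ρ.r * c.q A * ρ.r⁻¹ = ρ.r * c.q Y * ρ.r⁻¹ := by rw [hYr, eB, e]
      exact mul_left_cancel (mul_right_cancel e2)
    refine ⟨⟨B, hB, ?_, ?_, ?_, ?_⟩, eB.symm⟩
    · rw [← eB, mul_smul, mul_smul, ri.2, q_smul_self c hA]
      rfl
    · refine q_inj h c (inS_mm B hB B hB) hXS ?_
      rw [c.q_mul _ _ hB hB, ← eB, ← hXr, ← hsq, c.q_mul _ _ hA hA]
      group
    · exact fun e => h1 (back _ inS_one (by rw [c.q_one]; group) e)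
    · exact fun e => h2 (back _ inS_neg (by show ρ.r * zc c * ρ.r⁻¹ = zc c; rw [ρ.comm, mul_inv_cancel_right]) e)
  choose σ hσ using hex
  have h3 : σ^[3 ^ 1] = id := by
    funext A
    refine Subtype.ext (q_inj h c (σ^[3 ^ 1] A).2.1 A.2.1 ?_)
    show c.q (σ (σ (σ A))).1 = c.q A.1
    have e3 : ρ.r * ρ.r * ρ.r = 1 := ρ.pow3
    rw [hσ, hσ, hσ, show ρ.r * (ρ.r * (ρ.r * c.q A.1 * ρ.r⁻¹) * ρ.r⁻¹) * ρ.r⁻¹ =
      (ρ.r * ρ.r * ρ.r) * c.q A.1 * (ρ.r * ρ.r * ρ.r)⁻¹ by group, e3]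
    group
  have hno : ∀ A, σ A ≠ A := by
    rintro A hA
    obtain ⟨A, hA', hfix, hsq, h1, h2⟩ := A
    have e := hσ ⟨A, hA', hfix, hsq, h1, h2⟩
    rw [hA] at e
    have hcm : c.q A * ρ.r = ρ.r * c.q A := eq_mul_inv_iff_mul_eq.1 e
    rcases hX with rfl | rfl
    · refine h2 (q_inj h c hA' inS_neg (eq_z_of_comm h c ρ ?_ ?_ hcm (q_comm_z c hA')))
      · rw [← c.q_mul _ _ hA' hA', hsq, c.q_one]
      · exact fun e1 => h1 (q_inj h c hA' inS_one (e1.trans c.q_one.symm))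
    · obtain ⟨T⟩ := exists_table h
      have hr3 : orderOf ρ.r = 3 := orderOf_eq_prime (by rw [pow_succ, pow_two, ρ.pow3])
        fun e => ρ.moves (by rw [e, one_smul])
      have h4 : orderOf (c.q A) ∣ 4 := orderOf_dvd_of_pow_eq_one (by
        rw [show (4 : ℕ) = 2 * 2 from rfl, pow_mul, pow_two (c.q A), ← c.q_mul _ _ hA' hA', hsq, pow_two]
        rw [← c.q_mul _ _ inS_neg inS_neg, show mm neg4 neg4 = one4 by decide, c.q_one])
      have h18 := Subgroup.orderOf_dvd_natCard (s := Subgroup.centralizer ({ρ.r} : Set G))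
        (Subgroup.mem_centralizer_singleton_iff.2 hcm)
      rw [centralizer_three h T hr3] at h18
      have h2' := Nat.dvd_gcd h4 h18
      rw [show Nat.gcd 4 18 = 2 from rfl, orderOf_dvd_iff_pow_eq_one, pow_two, ← c.q_mul _ _ hA' hA', hsq,
        ← c.q_one] at h2'
      exact neg_ne (q_inj h c inS_neg inS_one h2')
  haveI : Fintype α := Fintype.ofFinite α
  have hm := Equiv.Perm.card_fixedPoints_modEq (p := 3) (n := 1) (f := σ) h3
  haveI : IsEmpty (Function.fixedPoints σ) := ⟨fun A => hno A.1 A.2⟩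
  rw [Fintype.card_eq_zero (α := Function.fixedPoints σ), ← Nat.card_eq_fintype_card] at hm
  exact hm

theorem q_fix_iff {A : M4} (hA : InS A) : c.q A • P₁ c ρ = P₁ c ρ ↔ InQ A := by
  classical
  set d : Bool := decide (c.q dM • P₁ c ρ = P₁ c ρ)
  set j : Bool := decide (c.q jM • P₁ c ρ = P₁ c ρ)
  have key : ∀ B, InS B → (c.q B • P₁ c ρ = P₁ c ρ ↔ bitsMem d j B) := by
    intro B hB
    have hdj : (c.q (mm dM jM) • P₁ c ρ = P₁ c ρ) ↔ d = j := by
      rw [q_fix_mm h c ρ inS_dM.1 inQ_jM.1]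
      simp [d, j]
    have step : ∀ X, InS X → InC (mm X B) →
        (c.q B • P₁ c ρ = P₁ c ρ ↔ c.q X • P₁ c ρ = P₁ c ρ) := fun X hX hC =>
      ((q_fix_mm h c ρ hX hB).1 (q_fix_C h c ρ hC)).symm
    constructor
    · intro hf
      rcases coset_cases B hB with hc | hc | hc | hc
      · exact Or.inl hc
      · exact Or.inr (Or.inl ⟨hc, by simpa [d] using (step _ inS_dM.1 hc).1 hf⟩)
      · exact Or.inr (Or.inr (Or.inl ⟨hc, by simpa [j] using (step _ inQ_jM.1 hc).1 hf⟩))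
      · exact Or.inr (Or.inr (Or.inr ⟨hc, hdj.1 ((step _ (inS_mm _ inS_dM.1 _ inQ_jM.1) hc).1 hf)⟩))
    · rintro (hc | ⟨hc, hd⟩ | ⟨hc, hd⟩ | ⟨hc, hd⟩)
      · exact q_fix_C h c ρ hc
      · exact (step _ inS_dM.1 hc).2 (by simpa [d] using hd)
      · exact (step _ inQ_jM.1 hc).2 (by simpa [j] using hd)
      · exact (step _ (inS_mm _ inS_dM.1 _ inQ_jM.1) hc).2 (hdj.2 hd)
  have hcount : ∀ X, X = one4 ∨ X = neg4 →
      (Finset.univ.filter fun B => InS B ∧ bitsMem d j B ∧ mm B B = X ∧ B ≠ one4 ∧ B ≠ neg4).card % 3 = 0 := by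
    intro X hX
    rw [← Fintype.card_subtype, ← Nat.card_eq_fintype_card, Nat.card_congr (Equiv.subtypeEquivRight
      (q := fun B => InS B ∧ c.q B • P₁ c ρ = P₁ c ρ ∧ mm B B = X ∧ B ≠ one4 ∧ B ≠ neg4)
      fun B => and_congr_right fun hB => and_congr_left' (key B hB).symm)]
    exact fix_count h c ρ X hX
  obtain ⟨hd, hj⟩ := bits_choice d j ⟨hcount _ (Or.inl rfl), hcount _ (Or.inr rfl)⟩
  rw [key A hA, hd, hj]
  exact bits_Q A hA

theorem q_P {A : M4} (hA : InQ A) : c.q A • P₁ c ρ = P₁ c ρ ∧ c.q A • P₂ c ρ = P₂ c ρ :=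
  (q_P₁_cases h c ρ hA.1).resolve_right fun e =>
    P₁_ne_P₂ c ρ (((q_fix_iff h c ρ hA.1).2 hA).symm.trans e.1)

theorem dM_P : c.q dM • P₁ c ρ = P₂ c ρ ∧ c.q dM • P₂ c ρ = P₁ c ρ :=
  (q_P₁_cases h c ρ inS_dM.1).resolve_left fun e => inS_dM.2 ((q_fix_iff h c ρ inS_dM.1).1 e.1)

/-- The four fixed subgroups outside the triangle form one orbit of the complement. -/
theorem outer_orbit {R R' : Sylow 3 G}
    (hR : zc c • R = R ∧ R ≠ P ∧ R ≠ P₁ c ρ ∧ R ≠ P₂ c ρ)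
    (hR' : zc c • R' = R' ∧ R' ≠ P ∧ R' ≠ P₁ c ρ ∧ R' ≠ P₂ c ρ) :
    ∃ A, InS A ∧ c.q A • R = R' := by
  classical
  haveI : Fintype (Sylow 3 G) := Fintype.ofFinite _
  haveI : Fact (Nat.Prime 2) := ⟨Nat.prime_two⟩
  set SD := Subgroup.centralizer ({zc c} : Set G) ⊓ MulAction.stabilizer G P with hSD
  obtain ⟨g, hg⟩ := MulAction.exists_smul_eq G P R
  -- the conjugate of the involution in the normalizer
  have hzg : (g⁻¹ * zc c * g) • P = P := by rw [mul_smul, mul_smul, hg, hR.1, inv_smul_eq_iff, hg]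
  obtain ⟨v, A, hA, e⟩ := (c.mem_N _).1 (smul_eq_self_iff.1 hzg)
  have hinv : InS A ∧ mm A A = one4 ∧ v + ap A v = 0 ∧ ¬ (v = 0 ∧ A = one4) := by
    have hz2 : (g⁻¹ * zc c * g) * (g⁻¹ * zc c * g) = 1 := by
      have hzz : zc c * zc c = 1 := by rw [← sq, ← orderOf_zc c, pow_orderOf_eq_one]
      rw [show g⁻¹ * zc c * g * (g⁻¹ * zc c * g) = g⁻¹ * (zc c * zc c) * g by group, hzz]
      group
    rw [e, c.mul_coord hA hA] at hz2
    obtain ⟨e1, e2⟩ := c.coord_eq_one (inS_mm A hA A hA) hz2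
    refine ⟨hA, e2, e1, fun ⟨e3, e4⟩ => ?_⟩
    rw [e3, e4, c.ι_zero, c.q_one, one_mul] at e
    have h1 : zc c = 1 := by
      have := congrArg (fun x => g * x * g⁻¹) e
      simp only [mul_one, mul_inv_cancel] at this
      rw [← this]; group
    have := orderOf_zc c
    rw [h1, orderOf_one] at this
    norm_num at this
  obtain ⟨k, hk, hkR⟩ : ∃ k : G, k⁻¹ * zc c * k = c.q dM ∧ k • P = R := by
    rcases involution_classes (v, A) hinv with ⟨u, hu, hA4⟩ | ⟨⟨w, B⟩, hB, hBA, hw⟩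
    · exfalso
      simp only at hu hA4
      subst hA4
      have hk : (g * c.ι u) * zc c = zc c * (g * c.ι u) := by
        have : c.ι v * c.q neg4 * c.ι u = c.ι u * c.q neg4 := by
          rw [mul_assoc, c.q_swap inS_neg, ← mul_assoc, ← c.ι_add]
          congr 2
          rw [← hu]
          exact double_neg u
        calc g * c.ι u * zc c = g * (c.ι v * c.q neg4 * c.ι u) := by rw [this, zc]; group
          _ = g * (g⁻¹ * zc c * g * c.ι u) := by rw [e]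
          _ = zc c * (g * c.ι u) := by group
      rcases orbit_C h c ρ hk with e1 | e1 | e1 <;> rw [mul_smul, ι_smul_self c, hg] at e1
      exacts [hR.2.1 e1, hR.2.2.1 e1, hR.2.2.2 e1]
    · simp only at hBA hw
      refine ⟨g * (c.ι w * c.q B), ?_, ?_⟩
      · rw [mul_inv_rev, show (c.ι w * c.q B)⁻¹ * g⁻¹ * zc c * (g * (c.ι w * c.q B)) =
          (c.ι w * c.q B)⁻¹ * ((g⁻¹ * zc c * g) * (c.ι w * c.q B)) by group, inv_mul_eq_iff_eq_mul, e,
          c.mul_coord hA hB, ← hw, ← hBA, c.q_mul _ _ hB inS_dM.1, mul_assoc]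
      · rw [mul_smul, mul_smul, q_smul_self c hB, ι_smul_self c, hg]
  -- the stabilizer is small
  have h12 : Nat.card (Subgroup.centralizer ({c.q dM} : Set G) ⊓ MulAction.stabilizer G P : Subgroup G) = 12 := by
    rw [← dM_centralizer_count, ← Fintype.card_subtype, ← Nat.card_eq_fintype_card]
    refine (Nat.card_eq_of_bijective (fun x : {x : V × M4 // InS x.2 ∧ x.1 + ap x.2 0 = 0 + ap dM x.1 ∧
        mm x.2 dM = mm dM x.2} => (⟨c.ι x.1.1 * c.q x.1.2, ?_, ?_⟩ :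
      ↥(Subgroup.centralizer ({c.q dM} : Set G) ⊓ MulAction.stabilizer G P))) ⟨?_, ?_⟩).symm
    · obtain ⟨hB, h1, h2⟩ := x.2
      refine Subgroup.mem_centralizer_singleton_iff.2 ?_
      have e1 := c.mul_coord hB inS_dM.1 x.1.1 0
      have e2 := c.mul_coord inS_dM.1 hB 0 x.1.1
      rw [h1, h2] at e1
      rw [c.ι_zero, one_mul] at e1 e2
      exact e1.trans e2.symm
    · exact smul_eq_self_iff.2 ((c.mem_N _).2 ⟨_, _, x.2.1, rfl⟩)
    · rintro ⟨⟨v, A⟩, hA⟩ ⟨⟨w, B⟩, hB⟩ e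
      obtain ⟨e1, e2⟩ := c.unique v w A B hA.1 hB.1 (congrArg Subtype.val e)
      exact Subtype.ext (Prod.ext e1 e2)
    · rintro ⟨n, hn1, hn2⟩
      obtain ⟨v, B, hB, rfl⟩ := (c.mem_N n).1 (smul_eq_self_iff.1 hn2)
      have e1 := c.mul_coord hB inS_dM.1 v 0
      have e2 := c.mul_coord inS_dM.1 hB 0 v
      rw [c.ι_zero, one_mul] at e1 e2
      have e3 := e1.symm.trans ((Subgroup.mem_centralizer_singleton_iff.1 hn1).trans e2)
      obtain ⟨u1, u2⟩ := c.unique _ _ _ _ (inS_mm B hB _ inS_dM.1) (inS_mm _ inS_dM.1 B hB) e3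
      exact ⟨⟨(v, B), hB, u1, u2⟩, rfl⟩
  have hd16 : Nat.card (SD ⊓ MulAction.stabilizer G R : Subgroup G) ∣ 16 :=
    card_SD h c ▸ Subgroup.card_dvd_of_le inf_le_left
  have hd12 : Nat.card (SD ⊓ MulAction.stabilizer G R : Subgroup G) ∣ 12 := by
    rw [← h12, ← Subgroup.card_map_of_injective (f := (MulAut.conj k⁻¹).toMonoidHom) (MulAut.conj k⁻¹).injective]
    refine Subgroup.card_dvd_of_le ?_
    rintro _ ⟨x, ⟨⟨hx1, -⟩, hx3⟩, rfl⟩
    refine ⟨Subgroup.mem_centralizer_singleton_iff.2 ?_, ?_⟩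
    · show k⁻¹ * x * k⁻¹⁻¹ * c.q dM = c.q dM * (k⁻¹ * x * k⁻¹⁻¹)
      rw [← hk, inv_inv, show k⁻¹ * x * k * (k⁻¹ * zc c * k) = k⁻¹ * (x * zc c) * k by group,
        Subgroup.mem_centralizer_singleton_iff.1 hx1]
      group
    · show (k⁻¹ * x * k⁻¹⁻¹) • P = P
      rw [inv_inv, mul_smul, mul_smul, hkR, MulAction.mem_stabilizer_iff.1 hx3, inv_smul_eq_iff, hkR]
  have hle4 : Nat.card (MulAction.stabilizer SD R) ≤ 4 := by
    have : Nat.card (MulAction.stabilizer SD R) = Nat.card (SD ⊓ MulAction.stabilizer G R : Subgroup G) :=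
      Nat.card_congr ⟨fun x => ⟨x.1.1, x.1.2, x.2⟩, fun y => ⟨⟨y.1, y.2.1⟩, y.2.2⟩, fun x => rfl, fun y => rfl⟩
    rw [this]
    exact Nat.le_of_dvd (by norm_num) (Nat.dvd_gcd hd16 hd12)
  have hor := Nat.card_congr (MulAction.orbitProdStabilizerEquivGroup SD R)
  rw [Nat.card_prod, card_SD h c] at hor
  have h4 : 4 ≤ Nat.card (MulAction.orbit SD R) := by
    by_contra hlt
    push Not at hlt
    have := Nat.mul_le_mul (Nat.le_of_lt_succ hlt) hle4
    omega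
  -- compare with the seven fixed points
  have hsub : MulAction.orbit SD R ⊆ {X | zc c • X = X} \ {P, P₁ c ρ, P₂ c ρ} := by
    rintro _ ⟨⟨x, hx1, hx2⟩, rfl⟩
    obtain ⟨B, hB, rfl⟩ := exists_q c (MulAction.mem_stabilizer_iff.1 hx2)
      (Subgroup.mem_centralizer_singleton_iff.1 hx1)
    refine ⟨?_, ?_⟩
    · show zc c • c.q B • R = c.q B • R
      rw [smul_smul, ← q_comm_z c hB, mul_smul, hR.1]
    · have key : ∀ X : Sylow 3 G, c.q B • R = c.q B • X → R = X := fun X e => smul_left_cancel _ e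
      rintro (e1 | e1 | e1)
      · exact hR.2.1 (key _ (e1.trans (q_smul_self c hB).symm))
      · rcases q_P₁_cases h c ρ hB with ⟨a, -⟩ | ⟨-, a⟩
        exacts [hR.2.2.1 (key _ (e1.trans a.symm)), hR.2.2.2 (key _ (e1.trans a.symm))]
      · rcases q_P₁_cases h c ρ hB with ⟨-, a⟩ | ⟨a, -⟩
        exacts [hR.2.2.2 (key _ (e1.trans a.symm)), hR.2.2.1 (key _ (e1.trans a.symm))]
  have h7 : ({X | zc c • X = X} : Set (Sylow 3 G)).ncard = 7 := by
    rw [← Nat.card_coe_set_eq]; exact card_fixed h c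
  have h3 : ({P, P₁ c ρ, P₂ c ρ} : Set (Sylow 3 G)).ncard = 3 :=
    Set.ncard_eq_three.2 ⟨_, _, _, (P₁_ne c ρ).symm, (P₂_ne c ρ).symm, P₁_ne_P₂ c ρ, rfl⟩
  have hsub3 : ({P, P₁ c ρ, P₂ c ρ} : Set (Sylow 3 G)) ⊆ {X | zc c • X = X} := by
    rintro X (rfl | rfl | rfl)
    exacts [q_smul_self c inS_neg, z_P₁ c ρ, z_P₂ c ρ]
  have heq := Set.eq_of_subset_of_ncard_le hsub
    (by rw [Set.ncard_sdiff hsub3 (Set.toFinite _), h7, h3, ← Nat.card_coe_set_eq]; omega) (Set.toFinite _)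
  have : R' ∈ MulAction.orbit SD R := by
    rw [heq]
    exact ⟨hR'.1, by rintro (e | e | e); exacts [hR'.2.1 e, hR'.2.2.1 e, hR'.2.2.2 e]⟩
  obtain ⟨⟨x, hx1, hx2⟩, hx⟩ := this
  obtain ⟨B, hB, rfl⟩ := exists_q c (MulAction.mem_stabilizer_iff.1 hx2)
    (Subgroup.mem_centralizer_singleton_iff.1 hx1)
  exact ⟨B, hB, hx⟩

end

end CfsgLib.M11Unique
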