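import Cfsg.Agent.M11Unique.Mat
import Cfsg.Agent.M11Order.Three

/-!
The normalizer of a Sylow 3-subgroup in a simple group of order 7920, in coordinates.
-/

set_option autoImplicit false
set_option linter.style.haveILetI false

namespace CfsgLib.M11Unique

open CfsgLib.M11Order CfsgLib.SylowToolkit
open scoped Pointwise

universe u

/-- Coordinates on the normalizer of a Sylow 3-subgroup. -/
structure Coord (G : Type u) [Group G] (P : Sylow 3 G) where
  ι : V → G
  q : M4 → G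
  ι_add : ∀ v w, ι (v + w) = ι v * ι w
  ι_inj : Function.Injective ι
  ι_range : ∀ g, g ∈ (P : Subgroup G) ↔ ∃ v, ι v = g
  q_mul : ∀ A B, InS A → InS B → q (mm A B) = q A * q B
  q_one : q one4 = 1
  q_conj : ∀ A v, InS A → q A * ι v * (q A)⁻¹ = ι (ap A v)
  mem_N : ∀ g, g ∈ Subgroup.normalizer ((P : Subgroup G) : Set G) ↔ ∃ v A, InS A ∧ g = ι v * q A
  unique : ∀ v w A B, InS A → InS B → ι v * q A = ι w * q B → v = w ∧ A = B

namespace Coord

variable {G : Type u} [Group G] {P : Sylow 3 G} (c : Coord G P)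

theorem ι_zero : c.ι 0 = 1 := by
  have h := c.ι_add 0 0
  rw [add_zero] at h
  exact left_eq_mul.1 h

theorem ι_neg (v : V) : c.ι (-v) = (c.ι v)⁻¹ := by
  refine eq_inv_of_mul_eq_one_left ?_
  rw [← c.ι_add, neg_add_cancel, c.ι_zero]

theorem q_mem {A : M4} (hA : InS A) : c.q A ∈ Subgroup.normalizer ((P : Subgroup G) : Set G) :=
  (c.mem_N _).2 ⟨0, A, hA, by rw [c.ι_zero, one_mul]⟩

theorem ι_mem (v : V) : c.ι v ∈ (P : Subgroup G) := (c.ι_range _).2 ⟨v, rfl⟩

theorem q_swap {A : M4} (hA : InS A) (v : V) : c.q A * c.ι v = c.ι (ap A v) * c.q A := by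
  rw [← c.q_conj A v hA, inv_mul_cancel_right]

theorem mul_coord {A B : M4} (hA : InS A) (hB : InS B) (v w : V) :
    c.ι v * c.q A * (c.ι w * c.q B) = c.ι (v + ap A w) * c.q (mm A B) := by
  rw [c.ι_add, c.q_mul A B hA hB, mul_assoc, ← mul_assoc (c.q A), c.q_swap hA]
  simp only [mul_assoc]

theorem coord_eq_one {A : M4} (hA : InS A) {v : V} (h : c.ι v * c.q A = 1) : v = 0 ∧ A = one4 :=
  c.unique v 0 A one4 hA inS_one (by rw [h, c.ι_zero, c.q_one, one_mul])

end Coord

/-- Matrix coordinates of an element of the general linear group. -/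
def toM4 (g : GL (Fin 2) (ZMod 3)) : M4 :=
  ((g : Matrix (Fin 2) (Fin 2) (ZMod 3)) 0 0, (g : Matrix (Fin 2) (Fin 2) (ZMod 3)) 0 1,
    (g : Matrix (Fin 2) (Fin 2) (ZMod 3)) 1 0, (g : Matrix (Fin 2) (Fin 2) (ZMod 3)) 1 1)

theorem toM4_mul (g k : GL (Fin 2) (ZMod 3)) : toM4 (g * k) = mm (toM4 g) (toM4 k) := by
  simp [toM4, mm, Matrix.mul_apply, Fin.sum_univ_two]

theorem toM4_one : toM4 1 = one4 := by simp [toM4, one4]

theorem toM4_inj : Function.Injective toM4 := by
  intro g k h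
  simp only [toM4, Prod.mk.injEq] at h
  refine Units.ext (Matrix.ext fun i j => ?_)
  fin_cases i <;> fin_cases j
  exacts [h.1, h.2.1, h.2.2.1, h.2.2.2]

theorem det_toM4 (g : GL (Fin 2) (ZMod 3)) : det4 (toM4 g) ≠ 0 := by
  have h := (Matrix.isUnit_iff_isUnit_det _).1 g.isUnit
  rw [Matrix.det_fin_two] at h
  exact h.ne_zero

theorem exists_toM4 {M : M4} (h : det4 M ≠ 0) : ∃ g : GL (Fin 2) (ZMod 3), toM4 g = M := by
  refine ⟨Matrix.GeneralLinearGroup.mkOfDetNeZero !![M.1, M.2.1; M.2.2.1, M.2.2.2] ?_, ?_⟩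
  · rw [Matrix.det_fin_two]; simpa [det4] using h
  · simp [toM4]

/-- The semidihedral subgroup. -/
def sdGroup : Subgroup (GL (Fin 2) (ZMod 3)) where
  carrier := {g | InS (toM4 g)}
  one_mem' := by show InS (toM4 1); rw [toM4_one]; exact inS_one
  mul_mem' {g k} hg hk := by show InS (toM4 (g * k)); rw [toM4_mul]; exact inS_mm _ hg _ hk
  inv_mem' {g} hg := by
    show InS (toM4 g⁻¹)
    obtain ⟨B, hB, hAB, -⟩ := mm_inv _ hg
    obtain ⟨k, rfl⟩ := exists_toM4 hB.1
    rw [← toM4_mul, ← toM4_one] at hAB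
    rwa [inv_eq_of_mul_eq_one_right (toM4_inj hAB)]

theorem card_sdGroup : Nat.card sdGroup = 16 := by
  rw [← card_inS, ← Fintype.card_subtype, ← Nat.card_eq_fintype_card]
  refine Nat.card_eq_of_bijective (fun g => ⟨toM4 g.1, g.2⟩) ⟨fun a b h => ?_, fun M => ?_⟩
  · exact Subtype.ext (toM4_inj (congrArg Subtype.val h))
  · obtain ⟨g, hg⟩ := exists_toM4 M.2.1
    exact ⟨⟨g, show InS (toM4 g) by rw [hg]; exact M.2⟩, Subtype.ext hg⟩

theorem card_GL_two_three : Nat.card (GL (Fin 2) (ZMod 3)) = 48 := by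
  haveI : Fact (Nat.Prime 3) := ⟨Nat.prime_three⟩
  rw [Matrix.card_GL_field, Fin.prod_univ_two, ZMod.card]
  norm_num

theorem det_zero_kernel : ∀ M : M4, det4 M = 0 → ∃ v : V, v ≠ 0 ∧ ap M v = 0 := by decide +kernel

theorem basis_decomp : ∀ v : V, v = v.1.val • ((1, 0) : V) + v.2.val • ((0, 1) : V) := by decide +kernel

theorem ap_cols : ∀ u w v : V, ap (u.1, w.1, u.2, w.2) v = v.1.val • u + v.2.val • w := by decide +kernel

theorem zmod_three_cases : ∀ j : ZMod 3, j ≠ 0 → j = 1 ∨ j = 2 := by decide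

theorem ap_determines : ∀ A B : M4, ap A (1, 0) = ap B (1, 0) ∧ ap A (0, 1) = ap B (0, 1) → A = B := by
  intro A B h
  obtain ⟨a, b, c, d⟩ := A
  obtain ⟨a', b', c', d'⟩ := B
  simp [ap] at h
  obtain ⟨⟨rfl, rfl⟩, rfl, rfl⟩ := h
  rfl

variable {G : Type u} [Group G] [Fintype G] [IsSimpleGroup G]

theorem centralizer_sylow_three (h : Nat.card G = 7920) (P : Sylow 3 G) :
    Subgroup.centralizer ((P : Subgroup G) : Set G) = (P : Subgroup G) := by
  obtain ⟨T⟩ := exists_table h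
  haveI : Fact (Nat.Prime 3) := ⟨Nat.prime_three⟩
  obtain ⟨h9, hcomm⟩ := card_sylow_three_subgroup h P
  have hPC : (P : Subgroup G) ≤ Subgroup.centralizer ((P : Subgroup G) : Set G) :=
    fun a ha => Subgroup.mem_centralizer_iff.mpr fun b hb =>
      congrArg Subtype.val (hcomm.is_comm.comm (⟨b, hb⟩ : (P : Subgroup G)) ⟨a, ha⟩)
  refine (Subgroup.eq_of_le_of_card_ge hPC ?_).symm
  obtain ⟨⟨z, hzP⟩, hz⟩ := exists_prime_orderOf_dvd_card' (G := (P : Subgroup G)) 3 (by rw [h9]; norm_num)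
  rw [Subgroup.orderOf_mk] at hz
  have hle : Subgroup.centralizer ((P : Subgroup G) : Set G) ≤ Subgroup.centralizer ({z} : Set G) :=
    Subgroup.centralizer_le (Set.singleton_subset_iff.2 hzP)
  have hd := Subgroup.card_dvd_of_le hle
  rw [centralizer_three h T hz] at hd
  have h9C := h9 ▸ Subgroup.card_dvd_of_le hPC
  rw [h9]
  by_contra hgt
  have h2 : 2 ∣ Nat.card (Subgroup.centralizer ((P : Subgroup G) : Set G)) := by
    have key : ∀ n ∈ (18 : ℕ).divisors, 9 ∣ n → ¬ n ≤ 9 → 2 ∣ n := by decide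
    exact key _ (Nat.mem_divisors.2 ⟨hd, by norm_num⟩) h9C hgt
  haveI : Fact (Nat.Prime 2) := ⟨Nat.prime_two⟩
  obtain ⟨⟨x, hxC⟩, hx⟩ := exists_prime_orderOf_dvd_card' 2 h2
  rw [Subgroup.orderOf_mk] at hx
  have := Subgroup.card_dvd_of_le (show (P : Subgroup G) ≤ Subgroup.centralizer ({x} : Set G) from fun a ha =>
    Subgroup.mem_centralizer_singleton_iff.mpr (Subgroup.mem_centralizer_iff.mp hxC a ha))
  rw [h9, (involution_values h T hx).1] at this
  norm_num at this

theorem exponent_sylow_three (h : Nat.card G = 7920) (P : Sylow 3 G) {x : G} (hx : x ∈ (P : Subgroup G)) :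
    x ^ 3 = 1 := by
  obtain ⟨T⟩ := exists_table h
  obtain ⟨h9, -⟩ := card_sylow_three_subgroup h P
  by_contra hne
  have hd := Subgroup.orderOf_dvd_natCard (s := (P : Subgroup G)) hx
  rw [h9] at hd
  have h9x : orderOf x = 9 := by
    have key : ∀ n ∈ (9 : ℕ).divisors, ¬ n ∣ 3 → n = 9 := by decide
    exact key _ (Nat.mem_divisors.2 ⟨hd, by norm_num⟩) fun h3 => hne (orderOf_dvd_iff_pow_eq_one.1 h3)
  have hgen : Subgroup.zpowers x = (P : Subgroup G) :=
    Subgroup.eq_of_le_of_card_ge (Subgroup.zpowers_le.mpr hx) (by rw [h9, Nat.card_zpowers, h9x])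
  haveI : IsCyclic (P : Subgroup G) := hgen ▸ inferInstanceAs (IsCyclic (Subgroup.zpowers x))
  have hr := relIndex_centralizer_dvd_card_mulAut (P : Subgroup G)
  have hm := Subgroup.relIndex_mul_relIndex (⊥ : Subgroup G) _ _ bot_le
    (Subgroup.centralizer_le_normalizer ((P : Subgroup G) : Set G))
  rw [Subgroup.relIndex_bot_left, Subgroup.relIndex_bot_left, card_normalizer_three h T P,
    centralizer_sylow_three h P, h9] at hm
  rw [IsCyclic.card_mulAut, h9, centralizer_sylow_three h P] at hr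
  rw [show (P : Subgroup G).relIndex (Subgroup.normalizer ((P : Subgroup G) : Set G)) = 16 by omega,
    show Nat.totient 9 = 6 by decide] at hr
  norm_num at hr

/-- Coordinates exist. -/
theorem exists_coord (h : Nat.card G = 7920) (P : Sylow 3 G) : Nonempty (Coord G P) := by
  classical
  obtain ⟨T⟩ := exists_table h
  haveI : Fact (Nat.Prime 3) := ⟨Nat.prime_three⟩
  haveI : Fact (Nat.Prime 2) := ⟨Nat.prime_two⟩
  obtain ⟨h9, hcomm⟩ := card_sylow_three_subgroup h P
  set N := Subgroup.normalizer ((P : Subgroup G) : Set G) with hN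
  have hN144 : Nat.card N = 144 := card_normalizer_three h T P
  -- a basis
  obtain ⟨⟨a, haP⟩, ha⟩ := exists_prime_orderOf_dvd_card' (G := (P : Subgroup G)) 3 (by rw [h9]; norm_num)
  rw [Subgroup.orderOf_mk] at ha
  obtain ⟨b, hbP, hbn⟩ : ∃ b ∈ (P : Subgroup G), b ∉ Subgroup.zpowers a := by
    by_contra hcon
    push Not at hcon
    have := Subgroup.card_le_of_le (show (P : Subgroup G) ≤ Subgroup.zpowers a from hcon)
    rw [h9, Nat.card_zpowers, ha] at this
    omega
  have ha3 : a ^ 3 = 1 := exponent_sylow_three h P haP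
  have hb3 : b ^ 3 = 1 := exponent_sylow_three h P hbP
  have hab : Commute a b := congrArg Subtype.val (hcomm.is_comm.comm (⟨a, haP⟩ : (P : Subgroup G)) ⟨b, hbP⟩)
  have hpow : ∀ (g : G), g ^ 3 = 1 → ∀ i j : ZMod 3, g ^ (i + j).val = g ^ i.val * g ^ j.val := by
    intro g hg i j
    rw [← pow_add, ZMod.val_add, ← pow_eq_pow_mod _ hg]
  let ι₀ : V → G := fun v => a ^ v.1.val * b ^ v.2.val
  have hι₀add : ∀ v w, ι₀ (v + w) = ι₀ v * ι₀ w := by
    intro v w
    simp only [ι₀, Prod.fst_add, Prod.snd_add, hpow a ha3, hpow b hb3]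
    rw [mul_assoc, ← mul_assoc (a ^ w.1.val), (hab.pow_pow w.1.val v.2.val).eq]
    simp only [mul_assoc]
  have hι₀mem : ∀ v, ι₀ v ∈ (P : Subgroup G) := fun v =>
    mul_mem (pow_mem haP _) (pow_mem hbP _)
  have hι₀zero : ι₀ 0 = 1 := by simp [ι₀]
  have hι₀inj : Function.Injective ι₀ := by
    have hker : ∀ v, ι₀ v = 1 → v = 0 := by
      rintro ⟨i, j⟩ hv
      simp only [ι₀] at hv
      have hbj : b ^ j.val ∈ Subgroup.zpowers a := by
        rw [eq_inv_of_mul_eq_one_right hv]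
        exact inv_mem (Subgroup.npow_mem_zpowers a _)
      have hj : j = 0 := by
        by_contra hj
        have hcases : j = 1 ∨ j = 2 := zmod_three_cases j hj
        rcases hcases with rfl | rfl
        · rw [show (1 : ZMod 3).val = 1 from rfl, pow_one] at hbj; exact hbn hbj
        · refine hbn ?_
          have := pow_mem hbj 2
          rw [← pow_mul, show (2 : ZMod 3).val * 2 = 3 + 1 from rfl, pow_succ, hb3, one_mul] at this
          exact this
      subst hj
      simp at hv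
      have hi : i = 0 := by
        have := orderOf_dvd_of_pow_eq_one hv
        rw [ha] at this
        exact (ZMod.val_eq_zero i).1 (Nat.eq_zero_of_dvd_of_lt this (ZMod.val_lt i))
      rw [hi]; rfl
    intro v w hvw
    have : ι₀ (v - w) = 1 := by
      have e := hι₀add (v - w) w
      rw [sub_add_cancel, hvw] at e
      exact mul_eq_right.1 e.symm
    exact sub_eq_zero.1 (hker _ this)
  have hι₀surj : ∀ g ∈ (P : Subgroup G), ∃ v, ι₀ v = g := by
    intro g hg
    have hb : Function.Bijective fun v => (⟨ι₀ v, hι₀mem v⟩ : (P : Subgroup G)) := by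
      refine (Nat.bijective_iff_injective_and_card _).2 ⟨fun v w e => hι₀inj (congrArg Subtype.val e), ?_⟩
      rw [h9, Nat.card_eq_fintype_card]; rfl
    obtain ⟨v, hv⟩ := hb.2 ⟨g, hg⟩
    exact ⟨v, congrArg Subtype.val hv⟩
  -- the matrix of an element of the normalizer
  have hmat : ∀ n : N, ∃ g : GL (Fin 2) (ZMod 3), ∀ v, (n : G) * ι₀ v * (n : G)⁻¹ = ι₀ (ap (toM4 g) v) := by
    intro n
    obtain ⟨u, hu⟩ := hι₀surj _ ((Subgroup.mem_normalizer_iff.1 n.2 _).1 (hι₀mem (1, 0)))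
    obtain ⟨w, hw⟩ := hι₀surj _ ((Subgroup.mem_normalizer_iff.1 n.2 _).1 (hι₀mem (0, 1)))
    set M : M4 := (u.1, w.1, u.2, w.2) with hM
    have hall : ∀ v, (n : G) * ι₀ v * (n : G)⁻¹ = ι₀ (ap M v) := by
      intro v
      have e1 : ∀ (k : ℕ) (x : V), (n : G) * ι₀ (k • x) * (n : G)⁻¹ = ((n : G) * ι₀ x * (n : G)⁻¹) ^ k := by
        intro k x
        induction k with
        | zero => simp [hι₀zero]
        | succ k ih =>
          rw [succ_nsmul, hι₀add, pow_succ, ← ih]
          group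
      have e2 : ∀ (k : ℕ) (x : V), ι₀ (k • x) = ι₀ x ^ k := by
        intro k x
        induction k with
        | zero => simp [hι₀zero]
        | succ k ih => rw [succ_nsmul, hι₀add, pow_succ, ih]
      have hv := basis_decomp v
      have hv' : ap M v = v.1.val • u + v.2.val • w := by
        rw [hM]; exact ap_cols u w v
      rw [hv', hι₀add, e2, e2, hu, hw, ← e1, ← e1]
      conv_lhs => rw [hv, hι₀add]
      group
    have hdet : det4 M ≠ 0 := by
      intro hd
      obtain ⟨v, hv0, hv⟩ := det_zero_kernel M hd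
      have := hall v
      rw [hv, hι₀zero] at this
      exact hv0 (hι₀inj ((conj_eq_one_iff.1 this).trans hι₀zero.symm))
    obtain ⟨g, hg⟩ := exists_toM4 hdet
    exact ⟨g, fun v => by rw [hg]; exact hall v⟩
  choose mat hmat using hmat
  have hdetermine : ∀ g k : GL (Fin 2) (ZMod 3), (∀ v, ι₀ (ap (toM4 g) v) = ι₀ (ap (toM4 k) v)) → g = k :=
    fun g k e => toM4_inj (ap_determines _ _ ⟨hι₀inj (e _), hι₀inj (e _)⟩)
  let ρ : N →* GL (Fin 2) (ZMod 3) := MonoidHom.mk' mat fun n m => hdetermine _ _ fun v => by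
    rw [toM4_mul, mm_ap, ← hmat, ← hmat, ← hmat, Subgroup.coe_mul]
    group
  obtain ⟨Q₀⟩ : Nonempty (Sylow 2 N) := inferInstance
  have hQ₀ : Nat.card (Q₀ : Subgroup N) = 16 := by
    rw [card_sylow_subgroup_eq (k := 4) (m := 9) (by rw [hN144]; norm_num) (by norm_num) Q₀]; norm_num
  have hρinj : Function.Injective (ρ.comp (Q₀ : Subgroup N).subtype) := by
    rw [← MonoidHom.ker_eq_bot_iff, Subgroup.eq_bot_iff_forall]
    intro n hn
    have hnP : ((n : N) : G) ∈ (P : Subgroup G) := by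
      rw [← centralizer_sylow_three h P, Subgroup.mem_centralizer_iff]
      intro x hx
      obtain ⟨v, rfl⟩ := hι₀surj x hx
      have e := hmat (n : N) v
      rw [show mat (n : N) = 1 from MonoidHom.mem_ker.1 hn, toM4_one, ap_one] at e
      exact (mul_inv_eq_iff_eq_mul.1 e).symm
    have h1 := Subgroup.orderOf_dvd_natCard (s := (P : Subgroup G)) hnP
    have h2 := orderOf_dvd_natCard n
    rw [h9] at h1
    rw [hQ₀, ← Subgroup.orderOf_coe, ← Subgroup.orderOf_coe] at h2
    have h12 := Nat.dvd_gcd h1 h2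
    norm_num at h12
    exact h12
  set R := (ρ.comp (Q₀ : Subgroup N).subtype).range
  have hR : Nat.card R = 16 := by rw [Nat.card_congr (MonoidHom.ofInjective hρinj).symm.toEquiv, hQ₀]
  have hsyl : ∀ K : Subgroup (GL (Fin 2) (ZMod 3)), Nat.card K = 16 →
      ∃ S : Sylow 2 (GL (Fin 2) (ZMod 3)), (S : Subgroup _) = K := by
    intro K hK
    refine ⟨Sylow.ofCard K ?_, rfl⟩
    rw [hK, card_GL_two_three, show (48 : ℕ) = 2 ^ 4 * 3 by norm_num,
      Nat.factorization_mul (by norm_num) (by norm_num), Finsupp.add_apply, Nat.prime_two.factorization_pow,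
      Finsupp.single_eq_same, Nat.factorization_eq_zero_of_not_dvd (by norm_num)]
    norm_num
  obtain ⟨S₁, hS₁⟩ := hsyl R hR
  obtain ⟨S₂, hS₂⟩ := hsyl sdGroup card_sdGroup
  obtain ⟨g, hg⟩ := MulAction.exists_smul_eq (GL (Fin 2) (ZMod 3)) S₂ S₁
  have hconj : ∀ r, r ∈ R ↔ g⁻¹ * r * g ∈ sdGroup := by
    intro r
    rw [← hS₁, ← hS₂, ← hg, Sylow.coe_subgroup_smul, Subgroup.mem_pointwise_smul_iff_inv_smul_mem]
    simp [MulAut.conj_symm_apply, mul_assoc]
  -- the coordinates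
  let ι : V → G := fun v => ι₀ (ap (toM4 g) v)
  have hqe : ∀ A, InS A → ∃ n : (Q₀ : Subgroup N), mm (mm (toM4 g⁻¹) (toM4 (mat (n : N)))) (toM4 g) = A := by
    intro A hA
    obtain ⟨k, rfl⟩ := exists_toM4 hA.1
    obtain ⟨n, hn⟩ : g * k * g⁻¹ ∈ R := (hconj _).2 (by
      simp only [mul_assoc, inv_mul_cancel_left, inv_mul_cancel, mul_one]; exact hA)
    refine ⟨n, ?_⟩
    rw [← toM4_mul, ← toM4_mul, show mat (n : N) = g * k * g⁻¹ from hn]
    congr 1
    group
  let q : M4 → G := fun A => if hA : InS A then (((hqe A hA).choose : N) : G) else 1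
  have hq : ∀ A (hA : InS A), ∃ n : (Q₀ : Subgroup N), q A = ((n : N) : G) ∧
      toM4 (g⁻¹ * mat (n : N) * g) = A := fun A hA =>
    ⟨_, dif_pos hA, by rw [toM4_mul, toM4_mul]; exact (hqe A hA).choose_spec⟩
  have hqinj : ∀ n m : (Q₀ : Subgroup N),
      toM4 (g⁻¹ * mat (n : N) * g) = toM4 (g⁻¹ * mat (m : N) * g) → n = m := fun n m e =>
    hρinj (mul_left_cancel (mul_right_cancel (toM4_inj e)))
  have hconjι : ∀ (n : N) v, (n : G) * ι v * (n : G)⁻¹ = ι (ap (toM4 (g⁻¹ * mat n * g)) v) := by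
    intro n v
    show (n : G) * ι₀ _ * (n : G)⁻¹ = ι₀ (ap _ (ap _ v))
    rw [hmat, ← mm_ap, ← mm_ap, ← toM4_mul, ← toM4_mul]
    congr 3
    group
  have hιrange : ∀ x, x ∈ (P : Subgroup G) ↔ ∃ v, ι v = x := by
    refine fun x => ⟨fun hx => ?_, fun ⟨v, hv⟩ => hv ▸ hι₀mem _⟩
    obtain ⟨w, rfl⟩ := hι₀surj x hx
    exact ⟨ap (toM4 g⁻¹) w, by show ι₀ (ap _ (ap _ w)) = _; rw [← mm_ap, ← toM4_mul, mul_inv_cancel, toM4_one, ap_one]⟩
  have hq1 : q one4 = 1 := by
    obtain ⟨n, hn, hne⟩ := hq one4 inS_one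
    have : n = 1 := hqinj n 1 (by
      rw [hne, show mat ((1 : (Q₀ : Subgroup N)) : N) = 1 from map_one ρ, mul_one, inv_mul_cancel, toM4_one])
    rw [hn, this]; rfl
  have hιinj : Function.Injective ι := fun v w e => by
    have := congrArg (ap (toM4 g⁻¹)) (hι₀inj e)
    rwa [← mm_ap, ← mm_ap, ← toM4_mul, inv_mul_cancel, toM4_one, ap_one, ap_one] at this
  refine ⟨{ ι := ι, q := q, ι_add := fun v w => by show ι₀ _ = ι₀ _ * ι₀ _; rw [ap_add, hι₀add],
            ι_inj := hιinj, ι_range := hιrange, q_mul := ?_, q_one := hq1, q_conj := ?_, mem_N := ?_, unique := ?_ }⟩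
  · intro A B hA hB
    obtain ⟨n, hn, hne⟩ := hq A hA
    obtain ⟨m, hm, hme⟩ := hq B hB
    obtain ⟨k, hk, hke⟩ := hq _ (inS_mm A hA B hB)
    have : k = n * m := hqinj k (n * m) (by
      rw [hke, show mat (((n * m : (Q₀ : Subgroup N))) : N) = mat (n : N) * mat (m : N) from map_mul ρ _ _,
        ← hne, ← hme, ← toM4_mul]
      congr 1; group)
    rw [hn, hm, hk, this]; rfl
  · intro A v hA
    obtain ⟨n, hn, hne⟩ := hq A hA
    rw [hn, hconjι, hne]
  · intro x
    constructor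
    · intro hx
      have hA : InS (toM4 (g⁻¹ * mat ⟨x, hx⟩ * g)) := by
        have : mat ⟨x, hx⟩ ∈ R := by
          have hPker : ∀ y : N, (y : G) ∈ (P : Subgroup G) → ρ y = 1 := fun y hy => hdetermine _ _ fun v => by
            show ι₀ (ap (toM4 (mat y)) v) = _
            rw [← hmat, toM4_one, ap_one]
            rw [show (y : G) * ι₀ v = ι₀ v * y from
              congrArg Subtype.val (hcomm.is_comm.comm (⟨_, hy⟩ : (P : Subgroup G)) ⟨_, hι₀mem v⟩), mul_inv_cancel_right]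
          -- `N = P Q₀`
          let μ : ↥(P : Subgroup G) × ↥(Q₀ : Subgroup N) → N := fun w => ⟨w.1, Subgroup.le_normalizer w.1.2⟩ * (w.2 : N)
          have hμ : Function.Bijective μ := by
            refine (Nat.bijective_iff_injective_and_card _).2 ⟨?_, by rw [Nat.card_prod, h9, hQ₀, hN144]⟩
            rintro ⟨u, n⟩ ⟨u', n'⟩ e
            have e2 : n = n' := by
              have := congrArg ρ e
              simp only [μ, map_mul] at this
              rw [hPker ⟨(u : G), Subgroup.le_normalizer u.2⟩ u.2, hPker ⟨(u' : G), Subgroup.le_normalizer u'.2⟩ u'.2,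
                one_mul, one_mul] at this
              exact hρinj this
            subst e2
            have := congrArg Subtype.val (mul_right_cancel e)
            exact Prod.ext (Subtype.ext this) rfl
          obtain ⟨⟨u, n⟩, hun⟩ := hμ.2 ⟨x, hx⟩
          refine ⟨n, ?_⟩
          rw [show mat ⟨x, hx⟩ = ρ (μ (u, n)) by rw [hun]; rfl]
          simp only [μ, map_mul]
          rw [hPker _ u.2, one_mul]
          rfl
        exact (hconj _).1 this
      obtain ⟨n, hn, hne⟩ := hq _ hA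
      have hxP : x * (q (toM4 (g⁻¹ * mat ⟨x, hx⟩ * g)))⁻¹ ∈ (P : Subgroup G) := by
        rw [hn, ← centralizer_sylow_three h P, Subgroup.mem_centralizer_iff]
        intro y hy
        obtain ⟨v, rfl⟩ := hι₀surj y hy
        have h1 := hmat (⟨x, hx⟩ * (n : N)⁻¹) v
        rw [show mat (⟨x, hx⟩ * (n : N)⁻¹) = ρ (⟨x, hx⟩ * (n : N)⁻¹) from rfl, map_mul, map_inv,
          show ρ (n : N) = ρ ⟨x, hx⟩ from mul_left_cancel (mul_right_cancel (toM4_inj hne)), mul_inv_cancel,
          toM4_one, ap_one, Subgroup.coe_mul, Subgroup.coe_inv] at h1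
        exact (mul_inv_eq_iff_eq_mul.1 h1).symm
      obtain ⟨v, hv⟩ := (hιrange _).1 hxP
      exact ⟨v, _, hA, by rw [hv, inv_mul_cancel_right]⟩
    · rintro ⟨v, A, hA, rfl⟩
      obtain ⟨n, hn, -⟩ := hq A hA
      exact mul_mem (Subgroup.le_normalizer ((hιrange _).2 ⟨v, rfl⟩)) (hn ▸ (n : N).2)
  · intro v w A B hA hB e
    obtain ⟨n, hn, hne⟩ := hq A hA
    obtain ⟨m, hm, hme⟩ := hq B hB
    have h1 : (ι w)⁻¹ * ι v = q B * (q A)⁻¹ := by
      rw [eq_mul_inv_iff_mul_eq, mul_assoc, e, inv_mul_cancel_left]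
    have hmemP : q B * (q A)⁻¹ ∈ (P : Subgroup G) :=
      h1 ▸ mul_mem (inv_mem ((hιrange _).2 ⟨w, rfl⟩)) ((hιrange _).2 ⟨v, rfl⟩)
    rw [hn, hm] at hmemP
    have hd1 := Subgroup.orderOf_dvd_natCard (s := (P : Subgroup G)) hmemP
    have hd2 := orderOf_dvd_natCard (m * n⁻¹)
    rw [h9] at hd1
    rw [hQ₀, ← Subgroup.orderOf_coe, ← Subgroup.orderOf_coe] at hd2
    have hd := Nat.dvd_gcd hd1 hd2
    norm_num at hd
    have hnm : m = n := mul_inv_eq_one.1 (Subtype.ext (Subtype.ext hd))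
    subst hnm
    have hAB : A = B := hne.symm.trans hme
    subst hAB
    rw [mul_inv_cancel, inv_mul_eq_one] at h1
    exact ⟨(hιinj h1).symm, rfl⟩

end CfsgLib.M11Unique
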