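import Mathlib

/-!
The Sylow 2-subgroup of the general linear group of dimension two over three elements, on coordinates.
-/

set_option autoImplicit false
set_option synthInstance.maxSize 4096
set_option synthInstance.maxHeartbeats 400000

namespace CfsgLib.M11Unique

/-- Vectors. -/
abbrev V := ZMod 3 × ZMod 3

/-- Matrices, row by row. -/
abbrev M4 := ZMod 3 × ZMod 3 × ZMod 3 × ZMod 3

/-- Application. -/
def ap (M : M4) (v : V) : V := (M.1 * v.1 + M.2.1 * v.2, M.2.2.1 * v.1 + M.2.2.2 * v.2)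

/-- Product. -/
def mm (A B : M4) : M4 :=
  (A.1 * B.1 + A.2.1 * B.2.2.1, A.1 * B.2.1 + A.2.1 * B.2.2.2,
    A.2.2.1 * B.1 + A.2.2.2 * B.2.2.1, A.2.2.1 * B.2.1 + A.2.2.2 * B.2.2.2)

/-- Identity. -/
def one4 : M4 := (1, 0, 0, 1)

/-- Minus the identity. -/
def neg4 : M4 := (2, 0, 0, 2)

/-- Determinant. -/
def det4 (M : M4) : ZMod 3 := M.1 * M.2.2.2 - M.2.1 * M.2.2.1

/-- The quaternion generator of order 4. -/
def iM : M4 := (0, 2, 1, 0)

/-- The second quaternion generator. -/
def jM : M4 := (1, 1, 1, 2)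

/-- The reflection outside the quaternion group. -/
def dM : M4 := (1, 0, 0, 2)

/-- The semidihedral group of order 16: the normalizer of `⟨iM⟩`. -/
def InS (M : M4) : Prop := det4 M ≠ 0 ∧ (mm M iM = mm iM M ∨ mm M iM = mm neg4 (mm iM M))

/-- The quaternion group. -/
def InQ (M : M4) : Prop := InS M ∧ det4 M = 1

instance (M : M4) : Decidable (InS M) := inferInstanceAs (Decidable (_ ∧ _))
instance (M : M4) : Decidable (InQ M) := inferInstanceAs (Decidable (_ ∧ _))

theorem mm_ap : ∀ (A B : M4) (v : V), ap (mm A B) v = ap A (ap B v) := by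
  intro A B v; simp only [ap, mm, Prod.mk.injEq]; constructor <;> ring

theorem ap_add (A : M4) (u v : V) : ap A (u + v) = ap A u + ap A v := by
  simp only [ap, Prod.fst_add, Prod.snd_add, Prod.mk_add_mk, Prod.mk.injEq]; constructor <;> ring

theorem ap_one (v : V) : ap one4 v = v := by simp [ap, one4]

theorem mm_assoc4 (A B C : M4) : mm (mm A B) C = mm A (mm B C) := by
  simp only [mm, Prod.mk.injEq]; refine ⟨?_, ?_, ?_, ?_⟩ <;> ring

theorem mm_one_left (A : M4) : mm one4 A = A := by simp [mm, one4]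

theorem ap_zero4 (A : M4) : ap A 0 = 0 := by simp [ap]

theorem inS_one : InS one4 := by decide
theorem inS_neg : InS neg4 := by decide
theorem inQ_neg : InQ neg4 := by decide
theorem inQ_iM : InQ iM := by decide
theorem inQ_jM : InQ jM := by decide
theorem inS_dM : InS dM ∧ ¬ InQ dM := by decide

theorem inS_mm : ∀ A, InS A → ∀ B, InS B → InS (mm A B) := by decide +kernel

theorem inQ_mm {A B : M4} (hA : InQ A) (hB : InQ B) : InQ (mm A B) := by
  refine ⟨inS_mm A hA.1 B hB.1, ?_⟩
  have : det4 (mm A B) = det4 A * det4 B := by simp only [det4, mm]; ring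
  rw [this, hA.2, hB.2, mul_one]

theorem card_inS : (Finset.univ.filter InS).card = 16 := by decide +kernel
theorem card_inQ : (Finset.univ.filter InQ).card = 8 := by decide +kernel

theorem mm_inv : ∀ A, InS A → ∃ B, InS B ∧ mm A B = one4 ∧ mm B A = one4 := by decide +kernel

theorem coset_Q : ∀ A, InS A → ¬ InQ A → InQ (mm dM A) ∧ InQ (mm A dM) := by decide +kernel

theorem mm_neg : ∀ A, InS A → mm A neg4 = mm neg4 A := by decide +kernel

theorem neg_ne : neg4 ≠ one4 := by decide

theorem fix_neg : ∀ v : V, ap neg4 v = v → v = 0 := by decide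

theorem Q_regular : ∀ u v : V, u ≠ 0 → v ≠ 0 → ∃ M, InQ M ∧ ap M u = v := by decide +kernel

theorem Q_semiregular : ∀ (v : V) (M : M4), InQ M → v ≠ 0 → ap M v = v → M = one4 := by decide +kernel

/-- The involutions with coordinates `(v, M)` in `V ⋊ S`: 21 of them. -/
theorem involution_count :
    (Finset.univ.filter fun x : V × M4 => InS x.2 ∧ mm x.2 x.2 = one4 ∧ x.1 + ap x.2 x.1 = 0 ∧
      ¬ (x.1 = 0 ∧ x.2 = one4)).card = 21 := by decide +kernel

/-- Involutions lie over the centre or are conjugate to `dM` with trivial translation. -/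
theorem involution_classes : ∀ x : V × M4,
    (InS x.2 ∧ mm x.2 x.2 = one4 ∧ x.1 + ap x.2 x.1 = 0 ∧ ¬ (x.1 = 0 ∧ x.2 = one4)) →
    (∃ u : V, u + u = x.1 ∧ x.2 = neg4) ∨
    (∃ y : V × M4, InS y.2 ∧ mm y.2 dM = mm x.2 y.2 ∧ y.1 = x.1 + ap x.2 y.1) := by decide +kernel

/-- The squares generate the cyclic group of order four; the three maximal subgroups. -/
theorem maximal_choice : ∀ A, (InS A ∧ mm (mm A A) (mm A A) ≠ one4) →
    mm A A = iM ∨ mm A A = mm neg4 iM := by decide +kernel

theorem exists_order_eight : ∃ A, InS A ∧ mm (mm A A) (mm A A) ≠ one4 := by decide +kernel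

/-- The subgroup generated by the squares. -/
def InC (M : M4) : Prop := M = one4 ∨ M = neg4 ∨ M = iM ∨ M = mm neg4 iM

instance (M : M4) : Decidable (InC M) := inferInstanceAs (Decidable (_ ∨ _))

theorem inK_eq_Q : ∀ A, InS A → ¬ InC A →
    (Finset.univ.filter fun M : M4 => InS M ∧ (InC M ∨ M = mm A one4 ∨ M = mm A neg4 ∨ M = mm A iM ∨
      M = mm A (mm neg4 iM)) ∧ mm M M = one4 ∧ M ≠ one4 ∧ M ≠ neg4).card % 3 = 0 →
    (Finset.univ.filter fun M : M4 => InS M ∧ (InC M ∨ M = mm A one4 ∨ M = mm A neg4 ∨ M = mm A iM ∨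
      M = mm A (mm neg4 iM)) ∧ mm M M = neg4).card % 3 = 0 →
    det4 A = 1 := by decide +kernel

end CfsgLib.M11Unique
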