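import Cfsg.Agent.M11Unique.Stars

/-!
A simple group of order 7920 is isomorphic to one explicit group of permutations of eleven points.
-/

set_option autoImplicit false
set_option linter.style.haveILetI false
set_option linter.unusedSectionVars false
set_option synthInstance.maxSize 4096

namespace CfsgLib.M11Unique

open CfsgLib.M11Order MulAction
open scoped Pointwise

universe u v

/-- The eight source points with their images, given the images `A`, `B` of the generators. -/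
def yCand (A B : M4) (i : Fin 11) : Fin 11 :=
  if i = 9 then 0 else if i = 0 then 9 else if i = 10 then 10 else if i = 1 then 1
  else if i = muF iM 1 then muF A 1 else if i = muF jM 1 then muF B 1
  else if i = muF iM (muF iM 1) then muF A (muF A 1)
  else if i = muF iM (muF jM 1) then muF A (muF B 1)
  else if i = muF jM (muF iM 1) then muF B (muF A 1)
  else if i = muF iM (muF iM (muF iM 1)) then muF A (muF A (muF A 1))
  else if i = muF jM (muF jM (muF jM 1)) then muF B (muF B (muF B 1))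
  else i

theorem points_cover : ∀ i : Fin 11, i = 9 ∨ i = 0 ∨ i = 10 ∨ i = 1 ∨ i = muF iM 1 ∨ i = muF jM 1 ∨
    i = muF iM (muF iM 1) ∨ i = muF iM (muF jM 1) ∨ i = muF jM (muF iM 1) ∨
    i = muF iM (muF iM (muF iM 1)) ∨ i = muF jM (muF jM (muF jM 1)) := by decide +kernel

/-- The generator outside the stabilizer of the tenth point. -/
def y7F : Fin 11 → Fin 11 := ![9, 1, 2, 4, 3, 7, 8, 5, 6, 0, 10]

/-- The mirror of `y7F`. -/
def y9F (i : Fin 11) : Fin 11 := muF dM (y7F (muF dM i))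

/-- Either at most three fixed points, or the identity. -/
def Few (f : Fin 11 → Fin 11) : Prop :=
  (Finset.univ.filter fun i => f i = i).card ≤ 3 ∨ ∀ i, f i = i

instance (f : Fin 11 → Fin 11) : Decidable (Few f) := inferInstanceAs (Decidable (_ ∨ _))

theorem y_choice : ∀ A, InQ A → ∀ B, InQ B →
    ((∀ i, yCand A B (yCand A B i) = i) ∧ (∀ i, yCand A B (muF iM i) = muF A (yCand A B i)) ∧
      (∀ i, yCand A B (muF jM i) = muF B (yCand A B i)) ∧ Few (yCand A B) ∧
      Few (fun i => yCand A B (taF (0, 1) i)) ∧ Few (fun i => yCand A B (swF i)) ∧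
      Few (fun i => yCand A B (taF (0, 1) (taF (1, 0) i))) ∧
      Few (fun i => yCand A B (taF (0, 1) (taF (1, 0) (taF (1, 0) i))))) →
    (∀ i, yCand A B i = y7F i) ∨ (∀ i, yCand A B i = y9F i) := by decide +kernel

theorem taF_comp (a b : V) (i : Fin 11) : taF a (taF b i) = taF (a + b) i := by
  by_cases hi : i.val < 9
  · simp only [taF, if_pos hi, if_pos (vec_idx _).2, (vec_idx _).1, add_assoc]
  · simp only [taF, if_neg hi]

theorem muF_comp (A B : M4) (i : Fin 11) : muF A (muF B i) = muF (mm A B) i := by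
  by_cases hi : i.val < 9
  · simp only [muF, if_pos hi, if_pos (vec_idx _).2, (vec_idx _).1, mm_ap]
  · simp only [muF, if_neg hi]

theorem taF_zero : ∀ i, taF 0 i = i := by decide +kernel

/-- A translation as a permutation. -/
def taP (u : V) : Equiv.Perm (Fin 11) where
  toFun := taF u
  invFun := taF (-u)
  left_inv i := by rw [taF_comp, neg_add_cancel, taF_zero]
  right_inv i := by rw [taF_comp, add_neg_cancel, taF_zero]

theorem muF_i_inv : (∀ i, muF (mm neg4 iM) (muF iM i) = i) ∧ (∀ i, muF iM (muF (mm neg4 iM) i) = i) := by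
  decide +kernel

theorem muF_j_inv : (∀ i, muF (mm neg4 jM) (muF jM i) = i) ∧ (∀ i, muF jM (muF (mm neg4 jM) i) = i) := by
  decide +kernel

theorem muF_d_inv : ∀ i, muF dM (muF dM i) = i := by decide +kernel
theorem swF_inv : ∀ i, swF (swF i) = i := by decide +kernel
theorem y7F_inv : ∀ i, y7F (y7F i) = i := by decide +kernel

/-- The first linear generator. -/
def miP : Equiv.Perm (Fin 11) := ⟨muF iM, muF (mm neg4 iM), muF_i_inv.1, muF_i_inv.2⟩

/-- The second linear generator. -/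
def mjP : Equiv.Perm (Fin 11) := ⟨muF jM, muF (mm neg4 jM), muF_j_inv.1, muF_j_inv.2⟩

/-- The outer reflection, used to normalize. -/
def dP : Equiv.Perm (Fin 11) := ⟨muF dM, muF dM, muF_d_inv, muF_d_inv⟩

/-- The swap. -/
def swP : Equiv.Perm (Fin 11) := ⟨swF, swF, swF_inv, swF_inv⟩

/-- The last generator. -/
def y7P : Equiv.Perm (Fin 11) := ⟨y7F, y7F, y7F_inv, y7F_inv⟩

/-- The model. -/
def modelGens : Set (Equiv.Perm (Fin 11)) := {taP (1, 0), taP (0, 1), miP, mjP, swP, y7P}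

/-- The model group. -/
def modelGroup : Subgroup (Equiv.Perm (Fin 11)) := Subgroup.closure modelGens

theorem taP_mem (u : V) : taP u ∈ modelGroup := by
  have hs : ∀ a b, taP a ∈ modelGroup → taP b ∈ modelGroup → taP (a + b) ∈ modelGroup := fun a b ha hb => by
    rw [show taP (a + b) = taP a * taP b from Equiv.ext fun i => (taF_comp a b i).symm]
    exact mul_mem ha hb
  have h0 : taP 0 ∈ modelGroup := by
    rw [show taP 0 = 1 from Equiv.ext fun i => taF_zero i]; exact one_mem _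
  have hk : ∀ (k : ℕ) a, taP a ∈ modelGroup → taP (k • a) ∈ modelGroup := by
    intro k a ha
    induction k with
    | zero => rwa [zero_smul]
    | succ k ih => rw [succ_nsmul]; exact hs _ _ ih ha
  rw [basis_decomp u]
  exact hs _ _ (hk _ _ (Subgroup.subset_closure (by simp [modelGens])))
    (hk _ _ (Subgroup.subset_closure (by simp [modelGens])))

theorem mu_move : ∀ t : Fin 11, t ≠ 9 → t ≠ 10 → t ≠ 0 → ∃ k : Fin 8,
    ![id, muF iM, muF jM, muF iM ∘ muF iM, muF iM ∘ muF jM, muF jM ∘ muF iM,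
      muF iM ∘ muF iM ∘ muF iM, muF jM ∘ muF jM ∘ muF jM] k t = 1 := by decide +kernel

theorem moves_basic : (∀ i : Fin 11, i.val < 9 → taF (-vec i) i = 0) ∧
    (∀ u : V, taF u 9 = 9 ∧ taF u 10 = 10) ∧ swF 9 = 10 ∧
    y7F 0 = 9 ∧ y7F 9 = 0 ∧ y7F 10 = 10 ∧ y7F 1 = 1 ∧
    muF iM 9 = 9 ∧ muF iM 10 = 10 ∧ muF iM 0 = 0 ∧ muF jM 9 = 9 ∧ muF jM 10 = 10 ∧ muF jM 0 = 0 := by
  decide +kernel

theorem model_four (p : Equiv.Perm (Fin 11)) : ∃ k ∈ modelGroup,
    (k * p) 10 = 10 ∧ (k * p) 9 = 9 ∧ (k * p) 0 = 0 ∧ (k * p) 1 = 1 := by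
  obtain ⟨hta, htf, hsw, y0, y9, y10, -, i9, i10, i0, j9, j10, j0⟩ := moves_basic
  have hy : y7P ∈ modelGroup := Subgroup.subset_closure (by simp [modelGens])
  have hx : swP ∈ modelGroup := Subgroup.subset_closure (by simp [modelGens])
  have hi : miP ∈ modelGroup := Subgroup.subset_closure (by simp [modelGens])
  have hj : mjP ∈ modelGroup := Subgroup.subset_closure (by simp [modelGens])
  obtain ⟨k₁, hk₁, e1⟩ : ∃ k ∈ modelGroup, k (p 10) = 10 := by
    by_cases hl : (p 10).val < 9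
    · exact ⟨swP * (y7P * taP (-vec (p 10))), mul_mem hx (mul_mem hy (taP_mem _)), by
        show swF (y7F (taF (-vec (p 10)) (p 10))) = 10
        rw [hta _ hl, y0, hsw]⟩
    · rcases high_cases _ hl with e | e
      · exact ⟨swP, hx, by show swF (p 10) = 10; rw [e, hsw]⟩
      · exact ⟨1, one_mem _, by rw [e]; rfl⟩
  obtain ⟨k₂, hk₂, e2, e2'⟩ : ∃ k ∈ modelGroup, k 10 = 10 ∧ k (k₁ (p 9)) = 9 := by
    have hne : k₁ (p 9) ≠ 10 := fun e => absurd (p.injective (k₁.injective (e.trans e1.symm))) (by decide)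
    by_cases hl : (k₁ (p 9)).val < 9
    · exact ⟨y7P * taP (-vec (k₁ (p 9))), mul_mem hy (taP_mem _), by
        show y7F (taF (-vec (k₁ (p 9))) 10) = 10
        rw [(htf _).2, y10], by
        show y7F (taF (-vec (k₁ (p 9))) (k₁ (p 9))) = 9
        rw [hta _ hl, y0]⟩
    · exact ⟨1, one_mem _, rfl, (high_cases _ hl).resolve_right hne⟩
  set t := k₂ (k₁ (p 0)) with ht
  have ht10 : t ≠ 10 := fun e => absurd (p.injective (k₁.injective (k₂.injective
    (e.trans (show (10 : Fin 11) = k₂ (k₁ (p 10)) by rw [e1, e2]))))) (by decide)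
  have ht9 : t ≠ 9 := fun e => absurd (p.injective (k₁.injective (k₂.injective (e.trans e2'.symm)))) (by decide)
  have htl : t.val < 9 := by
    by_contra hl
    exact (high_cases _ hl).elim ht9 ht10
  set k₃ := taP (-vec t)
  have e3 : k₃ t = 0 := hta t htl
  set s := k₃ (k₂ (k₁ (p 1))) with hs
  have hs10 : s ≠ 10 := fun e => absurd (p.injective (k₁.injective (k₂.injective (k₃.injective
    (e.trans (show (10 : Fin 11) = k₃ (k₂ (k₁ (p 10))) by rw [e1, e2]; exact ((htf (-vec t)).2).symm)))))) (by decide)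
  have hs9 : s ≠ 9 := fun e => absurd (p.injective (k₁.injective (k₂.injective (k₃.injective
    (e.trans (show (9 : Fin 11) = k₃ (k₂ (k₁ (p 9))) by rw [e2']; exact ((htf (-vec t)).1).symm)))))) (by decide)
  have hs0 : s ≠ 0 := fun e => absurd (p.injective (k₁.injective (k₂.injective (k₃.injective
    (e.trans e3.symm))))) (by decide)
  obtain ⟨n, hn⟩ := mu_move s hs9 hs10 hs0
  let ws : Fin 8 → Equiv.Perm (Fin 11) := ![1, miP, mjP, miP * miP, miP * mjP, mjP * miP,
    miP * (miP * miP), mjP * (mjP * mjP)]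
  have hw : ws n ∈ modelGroup ∧ ws n 10 = 10 ∧ ws n 9 = 9 ∧ ws n 0 = 0 ∧ ws n s = 1 := by
    fin_cases n <;> refine ⟨?_, ?_, ?_, ?_, hn⟩ <;>
      first
        | rfl
        | (simp [ws, hi, hj, mul_mem, one_mem]; done)
  refine ⟨ws n * (k₃ * (k₂ * k₁)), mul_mem hw.1 (mul_mem (taP_mem _) (mul_mem hk₂ hk₁)), ?_, ?_, ?_, ?_⟩
  · show ws n (k₃ (k₂ (k₁ (p 10)))) = 10
    rw [e1, e2, show k₃ 10 = 10 from (htf (-vec t)).2, hw.2.1]
  · show ws n (k₃ (k₂ (k₁ (p 9)))) = 9
    rw [e2', show k₃ 9 = 9 from (htf (-vec t)).1, hw.2.2.1]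
  · show ws n (k₃ t) = 0
    rw [e3, hw.2.2.2.1]
  · exact hw.2.2.2.2

theorem conj_identities :
    (∀ i, muF dM (taF (1, 0) (muF dM i)) = taF (1, 0) i) ∧
    (∀ i, muF dM (taF (0, 2) (muF dM i)) = taF (0, 1) i) ∧
    (∀ i, muF dM (muF (mm neg4 iM) (muF dM i)) = muF iM i) ∧
    (∀ i, muF dM (muF (mm (mm dM jM) dM) (muF dM i)) = muF jM i) ∧
    (∀ i, muF dM (swF (muF dM i)) = swF i) ∧
    (∀ i, muF dM (y9F (muF dM i)) = y7F i) ∧
    InQ (mm neg4 iM) ∧ InQ (mm (mm dM jM) dM) := by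
  decide +kernel

theorem range_model_eq {Γ : Type u} [Group Γ] (f : Γ →* Equiv.Perm (Fin 11))
    (hgen : modelGens ⊆ (f.range : Set (Equiv.Perm (Fin 11))))
    (hsharp : ∀ p ∈ f.range, p 10 = 10 → p 9 = 9 → p 0 = 0 → p 1 = 1 → p = 1) :
    f.range = modelGroup := by
  have hle : modelGroup ≤ f.range := (Subgroup.closure_le _).2 hgen
  refine le_antisymm (fun p hp => ?_) hle
  obtain ⟨k, hk, e1, e2, e3, e4⟩ := model_four p
  have := hsharp (k * p) (mul_mem (hle hk) hp) e1 e2 e3 e4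
  rw [eq_inv_of_mul_eq_one_right this]
  exact inv_mem hk

theorem taF_ne : taF (1, 0) 0 ≠ 0 := by decide +kernel

/-- Every simple group of order 7920 is isomorphic to the model. -/
theorem nonempty_mulEquiv_model {G : Type u} [Group G] [Fintype G] [IsSimpleGroup G]
    (h : Nat.card G = 7920) : Nonempty (G ≃* modelGroup) := by
  classical
  haveI : Fact (Nat.Prime 3) := ⟨Nat.prime_three⟩
  obtain ⟨P⟩ : Nonempty (Sylow 3 G) := inferInstance
  obtain ⟨c⟩ := exists_coord h P
  obtain ⟨ρ⟩ := exists_rot h c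
  have hmem : ∀ i, lab c ρ i ∈ MulAction.orbit G (SA c ρ) := fun i => range_lab h c ρ ▸ ⟨i, rfl⟩
  let e : Fin 11 ≃ MulAction.orbit G (SA c ρ) := Equiv.ofBijective (fun i => ⟨lab c ρ i, hmem i⟩)
    ⟨fun i j hij => lab_inj h c ρ (congrArg Subtype.val hij), fun ⟨S, hS⟩ => by
      rw [← range_lab h c ρ] at hS
      obtain ⟨i, hi⟩ := hS
      exact ⟨i, Subtype.ext hi⟩⟩
  let φ : G →* Equiv.Perm (Fin 11) :=
    e.symm.permCongrHom.toMonoidHom.comp (MulAction.toPermHom G (MulAction.orbit G (SA c ρ)))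
  have hφ : ∀ g i, lab c ρ (φ g i) = g • lab c ρ i := fun g i =>
    congrArg Subtype.val (e.apply_symm_apply (g • e i))
  have hφe : ∀ g (f : Fin 11 → Fin 11), (∀ i, g • lab c ρ i = lab c ρ (f i)) → ∀ i, φ g i = f i :=
    fun g f hf i => lab_inj h c ρ ((hφ g i).trans (hf i))
  have hta : ∀ u i, φ (c.ι u) i = taF u i := fun u => hφe _ _ (ι_lab h c ρ u)
  have hmu : ∀ M, InQ M → ∀ i, φ (c.q M) i = muF M i := fun M hM => hφe _ _ (q_lab h c ρ hM)
  have hsw : ∀ i, φ (c.q dM) i = swF i := hφe _ _ (dM_lab h c ρ)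
  have hinj : Function.Injective φ := by
    rw [← MonoidHom.ker_eq_bot_iff]
    refine (IsSimpleGroup.eq_bot_or_eq_top_of_normal φ.ker inferInstance).resolve_right fun htop => ?_
    have := hta (1, 0) 0
    rw [MonoidHom.mem_ker.1 (show c.ι (1, 0) ∈ φ.ker by rw [htop]; trivial)] at this
    exact taF_ne this.symm
  have hstab : ∀ g, φ g 9 = 9 → φ g 10 = 10 → φ g 0 = 0 → ∃ M, InQ M ∧ ∀ i, φ g i = muF M i := by
    intro g a b d
    have fx : ∀ i, φ g i = i → g • lab c ρ i = lab c ρ i := fun i hi => by rw [← hφ, hi]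
    obtain ⟨M, hM, rfl⟩ := stab_three h c ρ (fx 9 a) (fx 10 b) (fx 0 d)
    exact ⟨M, hM, hmu M hM⟩
  have hsharp : ∀ g, φ g 9 = 9 → φ g 10 = 10 → φ g 0 = 0 → φ g 1 = 1 → φ g = 1 := by
    intro g a b d d'
    obtain ⟨M, hM, hM'⟩ := hstab g a b d
    have e1 := congrArg vec ((hM' 1).symm.trans d')
    rw [muF, if_pos (by decide), (vec_idx _).1, vec_zero.2] at e1
    rw [Q_semiregular _ M hM e_ne_zero e1] at hM'
    exact Equiv.ext fun i => (hM' i).trans (muF_one i)
  have hquad : ∀ a b p q, a ≠ b → a ≠ p → a ≠ q → b ≠ p → b ≠ q → p ≠ q →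
      ∃ g, φ g 9 = a ∧ φ g 10 = b ∧ φ g 0 = p ∧ φ g 1 = q := by
    intro a b p q h1 h2 h3 h4 h5 h6
    obtain ⟨g, e1, e2, e3, e4⟩ := exists_quad h c ρ h1 h2 h3 h4 h5 h6
    exact ⟨g, lab_inj h c ρ ((hφ g 9).trans e1), lab_inj h c ρ ((hφ g 10).trans e2),
      lab_inj h c ρ ((hφ g 0).trans e3), lab_inj h c ρ ((hφ g 1).trans e4)⟩
  have hfew : ∀ g, Few (φ g) := by
    intro g
    refine or_iff_not_imp_left.2 fun hc => ?_
    push Not at hc
    obtain ⟨s, hs, hs4⟩ := Finset.exists_subset_card_eq (n := 4) hc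
    obtain ⟨a, b, p, q, h1, h2, h3, h4, h5, h6, rfl⟩ : ∃ a b p q, a ≠ b ∧ a ≠ p ∧ a ≠ q ∧ b ≠ p ∧ b ≠ q ∧
        p ≠ q ∧ s = {a, b, p, q} := by
      obtain ⟨a, t, ha, rfl, ht⟩ := Finset.card_eq_succ.1 hs4
      obtain ⟨b, p, q, hbp, hbq, hpq, rfl⟩ := Finset.card_eq_three.1 ht
      simp only [Finset.mem_insert, Finset.mem_singleton, not_or] at ha
      exact ⟨a, b, p, q, ha.1, ha.2.1, ha.2.2, hbp, hbq, hpq, rfl⟩
    obtain ⟨k, ka, kb, kp, kq⟩ := hquad a b p q h1 h2 h3 h4 h5 h6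
    have hfix : ∀ x y, φ k x = y → y ∈ ({a, b, p, q} : Finset (Fin 11)) → φ (k⁻¹ * g * k) x = x := by
      intro x y hxy hy
      have := (Finset.mem_filter.1 (hs hy)).2
      rw [map_mul, map_mul, Equiv.Perm.mul_apply, Equiv.Perm.mul_apply, hxy, this, ← hxy, map_inv]
      exact Equiv.symm_apply_apply _ _
    have h1' := hsharp _ (hfix 9 a ka (by simp)) (hfix 10 b kb (by simp)) (hfix 0 p kp (by simp))
      (hfix 1 q kq (by simp))
    intro i
    rw [map_mul, map_mul, map_inv, mul_assoc, inv_mul_eq_iff_eq_mul, mul_one, mul_eq_right] at h1'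
    rw [h1']; rfl
  obtain ⟨g, g9, g10, g0, g1⟩ := hquad 0 10 9 1 (by decide) (by decide) (by decide) (by decide) (by decide)
    (by decide)
  set y : Fin 11 → Fin 11 := fun i => φ g i with hy
  have hyy : ∀ i, y (y i) = i := by
    intro i
    have := hsharp (g * g) (by rw [map_mul, Equiv.Perm.mul_apply, g9, g0])
      (by rw [map_mul, Equiv.Perm.mul_apply, g10, g10]) (by rw [map_mul, Equiv.Perm.mul_apply, g0, g9])
      (by rw [map_mul, Equiv.Perm.mul_apply, g1, g1])
    rw [map_mul] at this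
    exact congrArg (fun p : Equiv.Perm (Fin 11) => p i) this
  have hconj : ∀ M, InQ M → ∃ A, InQ A ∧ ∀ i, y (muF M i) = muF A (y i) := by
    intro M hM
    have f9 : muF M 9 = 9 := rfl
    have f10 : muF M 10 = 10 := rfl
    have hval : ∀ i, φ (g * c.q M * g) i = y (muF M (y i)) := fun i => by
      rw [map_mul, map_mul, Equiv.Perm.mul_apply, Equiv.Perm.mul_apply, hmu M hM]
    have f0 : muF M 0 = 0 := by
      rw [muF, if_pos (by decide), vec_zero.1, ap_zero4]; exact idx_vec 0 (by decide)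
    obtain ⟨A, hA, hA'⟩ := hstab (g * c.q M * g)
      (by rw [hval, hy]; simp only; rw [g9, f0, g0])
      (by rw [hval, hy]; simp only; rw [g10, f10, g10])
      (by rw [hval, hy]; simp only; rw [g0, f9, g9])
    exact ⟨A, hA, fun i => by rw [← hA' (y i), hval, hyy]⟩
  obtain ⟨A, hA, hA'⟩ := hconj iM inQ_iM
  obtain ⟨B, hB, hB'⟩ := hconj jM inQ_jM
  have hcand : ∀ i, yCand A B i = y i := by
    have y1 : y 1 = 1 := g1
    intro i
    rcases points_cover i with rfl | rfl | rfl | rfl | rfl | rfl | rfl | rfl | rfl | rfl | rfl <;>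
      (try simp only [hA', hB', y1]) <;> (try simp only [hy, g9, g10, g0]) <;> rfl
  have hfew' : ∀ (k : G) (f : Fin 11 → Fin 11), (∀ i, φ k i = f i) → Few fun i => yCand A B (f i) := by
    intro k f hf
    have := hfew (g * k)
    convert this using 1
    funext i
    rw [map_mul, Equiv.Perm.mul_apply, hf, hcand]
  have hchoice := y_choice A hA B hB ⟨fun i => by simp only [hcand]; exact hyy i,
    fun i => by simp only [hcand]; exact hA' i, fun i => by simp only [hcand]; exact hB' i,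
    hfew' 1 id (fun i => by simp), hfew' _ _ (hta (0, 1)), hfew' _ _ hsw,
    hfew' (c.ι (0, 1) * c.ι (1, 0)) _ (fun i => by rw [map_mul, Equiv.Perm.mul_apply, hta, hta]),
    hfew' (c.ι (0, 1) * (c.ι (1, 0) * c.ι (1, 0))) _
      (fun i => by rw [map_mul, map_mul, Equiv.Perm.mul_apply, Equiv.Perm.mul_apply, hta, hta, hta])⟩
  -- conjugate to the model
  obtain ⟨ε, hε⟩ : ∃ ε : Equiv.Perm (Fin 11),
      modelGens ⊆ (((MulAut.conj ε).toMonoidHom.comp φ).range : Set (Equiv.Perm (Fin 11))) ∧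
      ε 9 = 9 ∧ ε 10 = 10 ∧ ε 0 = 0 ∧ ε 1 = 1 := by
    have mk : ∀ (ε p : Equiv.Perm (Fin 11)) (k : G) (f : Fin 11 → Fin 11), (∀ i, φ k i = f i) →
        (∀ i, ε (f (ε.symm i)) = p i) → p ∈ ((MulAut.conj ε).toMonoidHom.comp φ).range := by
      intro ε p k f hf hp
      refine ⟨k, Equiv.ext fun i => ?_⟩
      show ε (φ k (ε⁻¹ i)) = p i
      rw [hf]; exact hp i
    rcases hchoice with h7 | h9
    · refine ⟨1, ?_, rfl, rfl, rfl, rfl⟩
      rintro p (rfl | rfl | rfl | rfl | rfl | rfl)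
      · exact mk _ _ _ _ (hta (1, 0)) fun i => rfl
      · exact mk _ _ _ _ (hta (0, 1)) fun i => rfl
      · exact mk _ _ _ _ (hmu _ inQ_iM) fun i => rfl
      · exact mk _ _ _ _ (hmu _ inQ_jM) fun i => rfl
      · exact mk _ _ _ _ hsw fun i => rfl
      · exact mk _ _ g y (fun i => rfl) fun i => by
          show y i = y7F i
          rw [← hcand, h7]
    · obtain ⟨ca, cb, ci, cj, cs, cy, qi, qj⟩ := conj_identities
      refine ⟨dP, ?_, rfl, rfl, rfl, rfl⟩
      rintro p (rfl | rfl | rfl | rfl | rfl | rfl)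
      · exact mk _ _ _ _ (hta (1, 0)) ca
      · exact mk _ _ _ _ (hta (0, 2)) cb
      · exact mk _ _ _ _ (hmu _ qi) ci
      · exact mk _ _ _ _ (hmu _ qj) cj
      · exact mk _ _ _ _ hsw cs
      · exact mk _ _ g y (fun i => rfl) fun i => by
          show muF dM (y (muF dM i)) = y7F i
          rw [← hcand, h9]; exact cy i
  set ψ := (MulAut.conj ε).toMonoidHom.comp φ with hψ
  obtain ⟨hgen, ε9, ε10, ε0, ε1⟩ := hε
  have hrange : ψ.range = modelGroup := by
    refine range_model_eq ψ hgen ?_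
    rintro _ ⟨k, rfl⟩ p10 p9 p0 p1
    have tr : ∀ x, ε x = x → ψ k x = x → φ k x = x := by
      intro x hx hk
      have hk' : ε (φ k (ε⁻¹ x)) = x := hk
      rw [show ε⁻¹ x = x from Equiv.Perm.inv_eq_iff_eq.2 hx.symm] at hk'
      exact ε.injective (hk'.trans hx.symm)
    show MulAut.conj ε (φ k) = 1
    rw [hsharp k (tr 9 ε9 p9) (tr 10 ε10 p10) (tr 0 ε0 p0) (tr 1 ε1 p1), map_one]
  have hψinj : Function.Injective ψ := (MulAut.conj ε).injective.comp hinj
  exact ⟨(MonoidHom.ofInjective hψinj).trans (MulEquiv.subgroupCongr hrange)⟩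

/-- Simple groups of order 7920 are isomorphic. -/
theorem nonempty_mulEquiv_of_simple_7920 {G : Type u} {H : Type v} [Group G] [Group H] [Finite G] [Finite H]
    [IsSimpleGroup G] [IsSimpleGroup H] (hG : Nat.card G = 7920) (hH : Nat.card H = 7920) :
    Nonempty (G ≃* H) := by
  haveI := Fintype.ofFinite G
  haveI := Fintype.ofFinite H
  obtain ⟨e⟩ := nonempty_mulEquiv_model hG
  obtain ⟨f⟩ := nonempty_mulEquiv_model hH
  exact ⟨e.trans f.symm⟩

end CfsgLib.M11Unique
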