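import Cfsg.Agent.M11Unique.Adj

/-!
The eleven cliques of size ten and the action of a simple group of order 7920 on them.
-/

set_option autoImplicit false
set_option linter.style.haveILetI false
set_option linter.unusedSectionVars false
set_option synthInstance.maxSize 4096

namespace CfsgLib.M11Unique

open CfsgLib.M11Order MulAction
open scoped Pointwise

universe u

/-- The vector of a label below nine. -/
def vec (i : Fin 11) : V := ((i.val % 3 : ℕ), (i.val / 3 : ℕ))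

/-- The label of a vector. -/
def idx (v : V) : Fin 11 := ⟨v.1.val + 3 * v.2.val, by
  have h1 := ZMod.val_lt v.1
  have h2 := ZMod.val_lt v.2
  omega⟩

/-- The translation on labels. -/
def taF (u : V) (i : Fin 11) : Fin 11 := if i.val < 9 then idx (u + vec i) else i

/-- The linear map on labels. -/
def muF (M : M4) (i : Fin 11) : Fin 11 := if i.val < 9 then idx (ap M (vec i)) else i

/-- The reflection on labels. -/
def swF (i : Fin 11) : Fin 11 := if i.val < 9 then idx (ap dM (vec i)) else if i = 9 then 10 else 9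

theorem vec_idx : ∀ v : V, vec (idx v) = v ∧ (idx v).val < 9 := by decide +kernel

theorem idx_vec : ∀ i : Fin 11, i.val < 9 → idx (vec i) = i := by decide +kernel

theorem high_cases : ∀ i : Fin 11, ¬ i.val < 9 → i = 9 ∨ i = 10 := by decide +kernel

theorem muF_one : ∀ i : Fin 11, muF one4 i = i := by decide +kernel

theorem vec_zero : vec 0 = 0 ∧ vec 1 = (1, 0) := by decide +kernel

variable {G : Type u} [Group G] [Fintype G] [IsSimpleGroup G] [Fact (Nat.Prime 3)] {P : Sylow 3 G}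

/-- The first clique through `P`. -/
def SA (c : Coord G P) (ρ : Rot c) : Set (Sylow 3 G) := insert P (Set.range fun v => c.ι v • P₁ c ρ)

/-- The second clique through `P`. -/
def SB (c : Coord G P) (ρ : Rot c) : Set (Sylow 3 G) := insert P (Set.range fun v => c.ι v • P₂ c ρ)

/-- The clique through `P₁` and `P₂`. -/
def T0 (c : Coord G P) (ρ : Rot c) : Set (Sylow 3 G) := ρ.r • SA c ρ

/-- The eleven labelled cliques. -/
def lab (c : Coord G P) (ρ : Rot c) (i : Fin 11) : Set (Sylow 3 G) :=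
  if i.val < 9 then c.ι (vec i) • T0 c ρ else if i = 9 then SA c ρ else SB c ρ

section
variable (h : Nat.card G = 7920) (c : Coord G P) (ρ : Rot c)
include h

theorem ι_SA (u : V) : c.ι u • SA c ρ = SA c ρ ∧ c.ι u • SB c ρ = SB c ρ := by
  constructor <;> simp only [SA, SB, Set.smul_set_insert, ι_smul_self c, Set.smul_set_range] <;>
    congr 1 <;> ext X <;> simp only [Set.mem_range, smul_smul, ← c.ι_add] <;>
    exact ⟨fun ⟨v, e⟩ => ⟨u + v, e⟩, fun ⟨v, e⟩ => ⟨-u + v, by rwa [add_neg_cancel_left]⟩⟩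

theorem q_range {A : M4} (hA : InS A) {X Y : Sylow 3 G} (e : c.q A • X = Y) :
    c.q A • (Set.range fun v => c.ι v • X) = Set.range fun v => c.ι v • Y := by
  rw [Set.smul_set_range]
  ext Z
  simp only [Set.mem_range, smul_ι_smul c hA, e]
  refine ⟨fun ⟨v, hv⟩ => ⟨_, hv⟩, fun ⟨v, hv⟩ => ?_⟩
  obtain ⟨B, -, hB, -⟩ := mm_inv A hA
  exact ⟨ap B v, by rwa [← mm_ap, hB, ap_one]⟩

theorem q_SA {M : M4} (hM : InQ M) : c.q M • SA c ρ = SA c ρ ∧ c.q M • SB c ρ = SB c ρ := by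
  constructor
  · rw [SA, Set.smul_set_insert, q_smul_self c hM.1, q_range h c hM.1 (q_P h c ρ hM).1]
  · rw [SB, Set.smul_set_insert, q_smul_self c hM.1, q_range h c hM.1 (q_P h c ρ hM).2]

theorem dM_SA : c.q dM • SA c ρ = SB c ρ ∧ c.q dM • SB c ρ = SA c ρ := by
  constructor
  · rw [SA, Set.smul_set_insert, q_smul_self c inS_dM.1, q_range h c inS_dM.1 (dM_P h c ρ).1]; rfl
  · rw [SB, Set.smul_set_insert, q_smul_self c inS_dM.1, q_range h c inS_dM.1 (dM_P h c ρ).2]; rfl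

theorem ncard_SA : (SA c ρ).ncard = 10 := by
  rw [SA, Set.ncard_insert_of_notMem (s := Set.range fun v => c.ι v • P₁ c ρ)
    (fun ⟨v, e⟩ => nb_ne h c ρ ⟨v, Or.inl e.symm⟩ rfl) (Set.toFinite _),
    Set.ncard_range_of_injective fun v w => ι_P₁_inj h c ρ, Nat.card_eq_fintype_card]
  rfl

theorem mem_SA_SB {X : Sylow 3 G} (h1 : X ∈ SA c ρ) (h2 : X ∈ SB c ρ) : X = P := by
  rcases h1 with rfl | ⟨v, rfl⟩
  · rfl
  · rcases h2 with e | ⟨w, e⟩
    · exact absurd e (nb_ne h c ρ ⟨v, Or.inl rfl⟩)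
    · exact absurd e.symm (ι_P₁_ne_P₂ h c ρ)

theorem P₂_notMem : P₂ c ρ ∉ SA c ρ := by
  rintro (e | ⟨v, e⟩)
  · exact P₂_ne c ρ e
  · exact ι_P₁_ne_P₂ h c ρ (w := 0) (e.trans (by rw [c.ι_zero, one_smul]))

theorem mem_SA₁ : P₁ c ρ ∈ SA c ρ ∧ P₂ c ρ ∈ SB c ρ ∧ P ∈ SA c ρ ∧ P ∈ SB c ρ :=
  ⟨Or.inr ⟨0, by simp [c.ι_zero]⟩, Or.inr ⟨0, by simp [c.ι_zero]⟩, Or.inl rfl, Or.inl rfl⟩

theorem SA_ne_SB : SA c ρ ≠ SB c ρ := fun e => P₂_notMem h c ρ (e ▸ (mem_SA₁ h c ρ).2.1)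

theorem clique_SB {X Y : Sylow 3 G} (hX : X ∈ SB c ρ) (hY : Y ∈ SB c ρ) (hne : Y ≠ X) : adj c ρ X Y := by
  rcases hX with rfl | ⟨v, rfl⟩ <;> rcases hY with rfl | ⟨w, rfl⟩
  · exact absurd rfl hne
  · exact (adj_P h c ρ).2 ⟨w, Or.inr rfl⟩
  · exact adj_symm h c ρ ((adj_P h c ρ).2 ⟨v, Or.inr rfl⟩)
  · rw [adj_translate h c ρ, adj_P₂_P₂ h c ρ]
    exact (adj_structure h c ρ (dM_ne_zero _ fun e => hne (by rw [sub_eq_zero.1 e]))).1

theorem r_SB : ρ.r • SB c ρ = SA c ρ := by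
  have hP : P ∈ ρ.r • SB c ρ := ⟨_, (mem_SA₁ h c ρ).2.1, r_P₂ c ρ⟩
  have hP1 : P₁ c ρ ∈ ρ.r • SB c ρ := ⟨_, (mem_SA₁ h c ρ).2.2.2, rfl⟩
  refine Set.eq_of_subset_of_ncard_le ?_ (le_of_eq ?_) (Set.toFinite _)
  · rintro Y hY
    have cl : ∀ X ∈ ρ.r • SB c ρ, Y ≠ X → adj c ρ X Y := by
      rintro _ ⟨X, hX, rfl⟩ hne
      obtain ⟨Z, hZ, rfl⟩ := hY
      exact (adj_smul h c ρ ρ.r).2 (clique_SB h c ρ hX hZ fun e => hne (by rw [e]))
    by_cases e1 : Y = P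
    · rw [e1]; exact Or.inl rfl
    obtain ⟨v, rfl | rfl⟩ := (adj_P h c ρ).1 (cl P hP e1)
    · exact Or.inr ⟨v, rfl⟩
    · exfalso
      have h1 := cl _ hP1 fun e => ι_P₁_ne_P₂ h c ρ (v := 0) (w := v) (by rw [c.ι_zero, one_smul]; exact e.symm)
      by_cases hv : v = 0
      · rw [hv, c.ι_zero, one_smul] at hY
        obtain ⟨Z, hZ, e⟩ := hY
        have e' : Z = P₁ c ρ := smul_left_cancel ρ.r e
        exact P₁_ne c ρ (mem_SA_SB h c ρ (mem_SA₁ h c ρ).1 (e' ▸ hZ))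
      · exact (adj_structure h c ρ hv).2 h1
  · rw [Set.ncard_smul_set, ← (dM_SA h c ρ).1, Set.ncard_smul_set]

theorem rinv_SA : ρ.r⁻¹ • SA c ρ = SB c ρ := by rw [inv_smul_eq_iff, r_SB h c ρ]

theorem through_P {g : G} (hP : P ∈ g • SA c ρ) : g • SA c ρ = SA c ρ ∨ g • SA c ρ = SB c ρ := by
  obtain ⟨X, hX, e⟩ := hP
  have main : ∀ k : G, k • P = P → k • SA c ρ = SA c ρ ∨ k • SA c ρ = SB c ρ := by
    intro k hk
    obtain ⟨v, A, hA, rfl⟩ := (c.mem_N k).1 (smul_eq_self_iff.1 hk)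
    rw [mul_smul]
    by_cases hQ : InQ A
    · exact Or.inl (by rw [(q_SA h c ρ hQ).1, (ι_SA h c ρ v).1])
    · obtain ⟨B, hB, -, -⟩ := mm_inv A hA
      have hdd : c.q A = c.q dM * c.q (mm dM A) := by
        rw [← c.q_mul _ _ inS_dM.1 (coset_Q A hA hQ).1.1, ← mm_assoc4, show mm dM dM = one4 by decide, mm_one_left]
      exact Or.inr (by rw [hdd, mul_smul, (q_SA h c ρ (coset_Q A hA hQ).1).1, (dM_SA h c ρ).1, (ι_SA h c ρ v).2])
  rcases hX with rfl | ⟨v, rfl⟩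
  · exact main g e
  · have hk : (g * (c.ι v * ρ.r)) • P = P := by rw [mul_smul, mul_smul]; exact e
    have hg : g • SA c ρ = (g * (c.ι v * ρ.r)) • SB c ρ := by
      rw [mul_smul, mul_smul, r_SB h c ρ, (ι_SA h c ρ v).1]
    rcases main _ hk with e1 | e1
    · refine Or.inr ?_
      rw [hg]
      obtain ⟨u, A, hA, hgA⟩ := (c.mem_N _).1 (smul_eq_self_iff.1 hk)
      rw [hgA, mul_smul] at e1 ⊢
      rw [← (dM_SA h c ρ).1]
      have hQ : InQ A := by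
        by_contra hQ
        obtain ⟨w, B, hB, hgB⟩ := (c.mem_N (c.ι u * c.q A)).1 (smul_eq_self_iff.1 (by rw [← hgA]; exact hk))
        have hdd : c.q A = c.q dM * c.q (mm dM A) := by
          rw [← c.q_mul _ _ inS_dM.1 (coset_Q A hA hQ).1.1, ← mm_assoc4, show mm dM dM = one4 by decide, mm_one_left]
        rw [hdd, mul_smul, (q_SA h c ρ (coset_Q A hA hQ).1).1, (dM_SA h c ρ).1, (ι_SA h c ρ u).2] at e1
        exact SA_ne_SB h c ρ e1.symm
      rw [(dM_SA h c ρ).1, (q_SA h c ρ hQ).2, (ι_SA h c ρ u).2]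
    · refine Or.inl ?_
      rw [hg]
      obtain ⟨u, A, hA, hgA⟩ := (c.mem_N _).1 (smul_eq_self_iff.1 hk)
      rw [hgA, mul_smul] at e1 ⊢
      have hQ : ¬ InQ A := by
        intro hQ
        rw [(q_SA h c ρ hQ).1, (ι_SA h c ρ u).1] at e1
        exact SA_ne_SB h c ρ e1
      have hdd : c.q A = c.q dM * c.q (mm dM A) := by
        rw [← c.q_mul _ _ inS_dM.1 (coset_Q A hA hQ).1.1, ← mm_assoc4, show mm dM dM = one4 by decide, mm_one_left]
      rw [hdd, mul_smul, (q_SA h c ρ (coset_Q A hA hQ).1).2, (dM_SA h c ρ).2, (ι_SA h c ρ u).1]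

/-- Two cliques share at most one point. -/
theorem clique_unique {g k : G} {X Y : Sylow 3 G} (hne : X ≠ Y) (h1 : X ∈ g • SA c ρ) (h2 : Y ∈ g • SA c ρ)
    (h3 : X ∈ k • SA c ρ) (h4 : Y ∈ k • SA c ρ) : g • SA c ρ = k • SA c ρ := by
  obtain ⟨n, hn⟩ := MulAction.exists_smul_eq G X P
  have tr : ∀ (a : G) (Z : Sylow 3 G), Z ∈ a • SA c ρ → n • Z ∈ (n * a) • SA c ρ := fun a Z hZ => by
    rw [mul_smul]; exact Set.smul_mem_smul_set hZ
  have p1 := tr g X h1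
  have p3 := tr k X h3
  rw [hn] at p1 p3
  have hY : n • Y ≠ P := fun e => hne (smul_left_cancel n (hn.trans e.symm))
  refine smul_left_cancel n ?_
  rw [← mul_smul, ← mul_smul]
  rcases through_P h c ρ p1 with e1 | e1 <;> rcases through_P h c ρ p3 with e3 | e3
  · rw [e1, e3]
  · exact absurd (mem_SA_SB h c ρ (e1 ▸ tr g Y h2) (e3 ▸ tr k Y h4)) hY
  · exact absurd (mem_SA_SB h c ρ (e3 ▸ tr k Y h4) (e1 ▸ tr g Y h2)) hY
  · rw [e1, e3]

theorem mem_T0 : P₁ c ρ ∈ T0 c ρ ∧ P₂ c ρ ∈ T0 c ρ ∧ P ∉ T0 c ρ := by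
  refine ⟨⟨_, (mem_SA₁ h c ρ).2.2.1, rfl⟩, ⟨_, (mem_SA₁ h c ρ).1, rfl⟩, ?_⟩
  rintro ⟨X, hX, e⟩
  have : X = P₂ c ρ := smul_left_cancel ρ.r (e.trans (r_P₂ c ρ).symm)
  exact P₂_notMem h c ρ (this ▸ hX)

theorem T0_ne (u : V) : c.ι u • T0 c ρ ≠ SA c ρ ∧ c.ι u • T0 c ρ ≠ SB c ρ := by
  have : P ∉ c.ι u • T0 c ρ := fun hP => (mem_T0 h c ρ).2.2 (by
    have := Set.mem_smul_set_iff_inv_smul_mem.1 hP
    rwa [← c.ι_neg, ι_smul_self c] at this)
  exact ⟨fun e => this (e ▸ (mem_SA₁ h c ρ).2.2.1), fun e => this (e ▸ (mem_SA₁ h c ρ).2.2.2)⟩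

theorem T0_fixed {g : G} (hg : (g • P₁ c ρ = P₁ c ρ ∧ g • P₂ c ρ = P₂ c ρ) ∨
    (g • P₁ c ρ = P₂ c ρ ∧ g • P₂ c ρ = P₁ c ρ)) : g • T0 c ρ = T0 c ρ := by
  obtain ⟨m1, m2, -⟩ := mem_T0 h c ρ
  have a1 := Set.smul_mem_smul_set (a := g) m1
  have a2 := Set.smul_mem_smul_set (a := g) m2
  rw [T0, ← mul_smul] at a1 a2 ⊢
  rcases hg with ⟨e1, e2⟩ | ⟨e1, e2⟩ <;> rw [e1] at a1 <;> rw [e2] at a2
  · exact clique_unique h c ρ (P₁_ne_P₂ c ρ) a1 a2 m1 m2
  · exact clique_unique h c ρ (P₁_ne_P₂ c ρ) a2 a1 m1 m2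

theorem lab_low {i : Fin 11} (hi : i.val < 9) : lab c ρ i = c.ι (vec i) • T0 c ρ := if_pos hi

theorem lab_idx (v : V) : lab c ρ (idx v) = c.ι v • T0 c ρ := by
  rw [lab_low h c ρ (vec_idx v).2, (vec_idx v).1]

theorem lab_nine : lab c ρ 9 = SA c ρ ∧ lab c ρ 10 = SB c ρ := ⟨rfl, rfl⟩

theorem ι_lab (u : V) (i : Fin 11) : c.ι u • lab c ρ i = lab c ρ (taF u i) := by
  by_cases hi : i.val < 9
  · rw [taF, if_pos hi, lab_idx h c ρ, lab_low h c ρ hi, c.ι_add, mul_smul]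
  · rw [taF, if_neg hi]
    rcases high_cases i hi with rfl | rfl
    exacts [(ι_SA h c ρ u).1, (ι_SA h c ρ u).2]

theorem q_lab {M : M4} (hM : InQ M) (i : Fin 11) : c.q M • lab c ρ i = lab c ρ (muF M i) := by
  by_cases hi : i.val < 9
  · rw [muF, if_pos hi, lab_idx h c ρ, lab_low h c ρ hi, smul_smul, c.q_swap hM.1, mul_smul,
      T0_fixed h c ρ (Or.inl (q_P h c ρ hM))]
  · rw [muF, if_neg hi]
    rcases high_cases i hi with rfl | rfl
    exacts [(q_SA h c ρ hM).1, (q_SA h c ρ hM).2]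

theorem dM_lab (i : Fin 11) : c.q dM • lab c ρ i = lab c ρ (swF i) := by
  by_cases hi : i.val < 9
  · rw [swF, if_pos hi, lab_idx h c ρ, lab_low h c ρ hi, smul_smul, c.q_swap inS_dM.1, mul_smul,
      T0_fixed h c ρ (Or.inr (dM_P h c ρ))]
  · rw [swF, if_neg hi]
    rcases high_cases i hi with rfl | rfl
    exacts [(dM_SA h c ρ).1, (dM_SA h c ρ).2]

theorem lab_inj : Function.Injective (lab c ρ) := by
  intro i j e
  by_cases hi : i.val < 9 <;> by_cases hj : j.val < 9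
  · rw [lab_low h c ρ hi, lab_low h c ρ hj] at e
    have key : c.ι (vec j - vec i) • T0 c ρ = T0 c ρ := by
      refine smul_left_cancel (c.ι (vec i)) ?_
      rw [smul_smul, ← c.ι_add, add_sub_cancel, e]
    by_contra hne
    set u := vec j - vec i with hu
    have hu0 : u ≠ 0 := fun e0 => hne (by rw [← idx_vec i hi, ← idx_vec j hj, sub_eq_zero.1 e0])
    obtain ⟨m1, -, -⟩ := mem_T0 h c ρ
    have m3 := Set.smul_mem_smul_set (a := c.ι u) m1
    rw [key] at m3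
    have hd : P₁ c ρ ≠ c.ι u • P₁ c ρ := fun e0 =>
      hu0 (ι_P₁_inj h c ρ (v := u) (w := 0) (by rw [c.ι_zero, one_smul]; exact e0.symm))
    refine (T0_ne h c ρ 0).1 ?_
    rw [c.ι_zero, one_smul, T0]
    refine (clique_unique h c ρ (k := 1) hd m1 m3 ?_ ?_).trans (one_smul _ _)
    · rw [one_smul]; exact (mem_SA₁ h c ρ).1
    · rw [one_smul]; exact Or.inr ⟨u, rfl⟩
  · rw [lab_low h c ρ hi] at e
    rcases high_cases j hj with rfl | rfl
    exacts [absurd e (T0_ne h c ρ _).1, absurd e (T0_ne h c ρ _).2]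
  · rw [lab_low h c ρ hj] at e
    rcases high_cases i hi with rfl | rfl
    exacts [absurd e.symm (T0_ne h c ρ _).1, absurd e.symm (T0_ne h c ρ _).2]
  · rcases high_cases i hi with rfl | rfl <;> rcases high_cases j hj with rfl | rfl
    exacts [rfl, absurd e (SA_ne_SB h c ρ), absurd e.symm (SA_ne_SB h c ρ), rfl]

theorem stab_SA {g : G} (hP : g • P = P) (hS : g • SA c ρ = SA c ρ) :
    ∃ v M, InQ M ∧ g = c.ι v * c.q M := by
  obtain ⟨v, A, hA, rfl⟩ := (c.mem_N g).1 (smul_eq_self_iff.1 hP)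
  refine ⟨v, A, ?_, rfl⟩
  by_contra hQ
  have hdd : c.q A = c.q dM * c.q (mm dM A) := by
    rw [← c.q_mul _ _ inS_dM.1 (coset_Q A hA hQ).1.1, ← mm_assoc4, show mm dM dM = one4 by decide, mm_one_left]
  rw [mul_smul, hdd, mul_smul, (q_SA h c ρ (coset_Q A hA hQ).1).1, (dM_SA h c ρ).1, (ι_SA h c ρ v).2] at hS
  exact SA_ne_SB h c ρ hS.symm

theorem ncard_orbit : (MulAction.orbit G (SA c ρ)).ncard = 11 := by
  classical
  set St := MulAction.stabilizer G (SA c ρ) with hSt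
  have horb : MulAction.orbit St P = SA c ρ := by
    refine Set.Subset.antisymm ?_ ?_
    · rintro _ ⟨⟨g, hg⟩, rfl⟩
      show g • P ∈ SA c ρ
      rw [← show g • SA c ρ = SA c ρ from hg]
      exact Set.smul_mem_smul_set (mem_SA₁ h c ρ).2.2.1
    · rintro X (rfl | ⟨v, rfl⟩)
      · exact MulAction.mem_orbit_self _
      · refine ⟨⟨c.ι v * ρ.r * c.q dM, ?_⟩, ?_⟩
        · show (c.ι v * ρ.r * c.q dM) • SA c ρ = SA c ρ
          rw [mul_smul, mul_smul, (dM_SA h c ρ).1, r_SB h c ρ, (ι_SA h c ρ v).1]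
        · show (c.ι v * ρ.r * c.q dM) • P = _
          rw [mul_smul, mul_smul, q_smul_self c inS_dM.1]; rfl
  have hst : Nat.card (MulAction.stabilizer St P) = 72 := by
    have e : (72 : ℕ) = Nat.card (V × {M : M4 // InQ M}) := by
      rw [Nat.card_prod, Nat.card_eq_fintype_card, Nat.card_eq_fintype_card, Fintype.card_subtype, card_inQ]; rfl
    rw [e]
    refine (Nat.card_eq_of_bijective (fun x : V × {M : M4 // InQ M} =>
      (⟨⟨c.ι x.1 * c.q x.2.1, ?_⟩, ?_⟩ : MulAction.stabilizer St P)) ⟨?_, ?_⟩).symm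
    · show (c.ι x.1 * c.q x.2.1) • SA c ρ = SA c ρ
      rw [mul_smul, (q_SA h c ρ x.2.2).1, (ι_SA h c ρ x.1).1]
    · exact smul_eq_self_iff.2 ((c.mem_N _).2 ⟨_, _, x.2.2.1, rfl⟩)
    · rintro ⟨v, A, hA⟩ ⟨w, B, hB⟩ e
      obtain ⟨e1, e2⟩ := c.unique v w A B hA.1 hB.1 (congrArg (fun t => (t.1.1 : G)) e)
      exact Prod.ext e1 (Subtype.ext e2)
    · rintro ⟨⟨g, hg⟩, hgP⟩
      obtain ⟨v, M, hM, rfl⟩ := stab_SA h c ρ hgP hg
      exact ⟨(v, ⟨M, hM⟩), rfl⟩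
  have h1 := Nat.card_congr (MulAction.orbitProdStabilizerEquivGroup St P)
  rw [Nat.card_prod, hst, horb, Nat.card_coe_set_eq, ncard_SA h c ρ] at h1
  have h2 := Nat.card_congr (MulAction.orbitProdStabilizerEquivGroup G (SA c ρ))
  rw [Nat.card_prod, ← hSt, ← h1, Nat.card_coe_set_eq, h] at h2
  omega

theorem range_lab : Set.range (lab c ρ) = MulAction.orbit G (SA c ρ) := by
  refine Set.eq_of_subset_of_ncard_le ?_ ?_ (Set.toFinite _)
  · rintro _ ⟨i, rfl⟩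
    by_cases hi : i.val < 9
    · exact ⟨c.ι (vec i) * ρ.r, by rw [lab_low h c ρ hi, T0, ← mul_smul]⟩
    · rcases high_cases i hi with rfl | rfl
      exacts [MulAction.mem_orbit_self _, ⟨c.q dM, (dM_SA h c ρ).1⟩]
  · rw [ncard_orbit h c ρ, Set.ncard_range_of_injective (lab_inj h c ρ)]; simp

/-- Any two cliques are the image of the two through `P`. -/
theorem exists_pair {i j : Fin 11} (hij : i ≠ j) :
    ∃ g : G, g • SA c ρ = lab c ρ i ∧ g • SB c ρ = lab c ρ j := by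
  obtain ⟨k, hk⟩ : lab c ρ i ∈ MulAction.orbit G (SA c ρ) := range_lab h c ρ ▸ ⟨i, rfl⟩
  obtain ⟨a, ha⟩ : lab c ρ j ∈ MulAction.orbit G (SA c ρ) := range_lab h c ρ ▸ ⟨j, rfl⟩
  obtain ⟨l, hl⟩ : (k⁻¹ * a) • SA c ρ ∈ Set.range (lab c ρ) := range_lab h c ρ ▸ ⟨_, rfl⟩
  have hk' : k • SA c ρ = lab c ρ i := hk
  have hkl : k • lab c ρ l = lab c ρ j := by rw [hl, mul_smul, smul_inv_smul]; exact ha
  by_cases hl9 : l.val < 9
  · refine ⟨k * (c.ι (vec l) * ρ.r * ρ.r⁻¹ * ρ.r * c.q dM), ?_, ?_⟩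
    · rw [inv_mul_cancel_right, mul_smul, mul_smul, mul_smul, (dM_SA h c ρ).1, r_SB h c ρ, (ι_SA h c ρ _).1, hk']
    · rw [inv_mul_cancel_right, mul_smul, mul_smul, mul_smul, (dM_SA h c ρ).2, ← T0, ← lab_low h c ρ hl9, hkl]
  · rcases high_cases l hl9 with rfl | rfl
    · exact absurd (lab_inj h c ρ (hk'.symm.trans hkl)) hij
    · exact ⟨k, hk', hkl⟩

/-- Four distinct labels are an image of four fixed ones. -/
theorem exists_quad {a b p q : Fin 11} (hab : a ≠ b) (hap : a ≠ p) (haq : a ≠ q) (hbp : b ≠ p) (hbq : b ≠ q)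
    (hpq : p ≠ q) : ∃ g : G, g • lab c ρ 9 = lab c ρ a ∧ g • lab c ρ 10 = lab c ρ b ∧
      g • lab c ρ 0 = lab c ρ p ∧ g • lab c ρ 1 = lab c ρ q := by
  obtain ⟨g₁, ha, hb⟩ := exists_pair h c ρ hab
  have hmem : ∀ x, ∃ l, g₁ • lab c ρ l = lab c ρ x := by
    intro x
    obtain ⟨k, hk⟩ : lab c ρ x ∈ MulAction.orbit G (SA c ρ) := range_lab h c ρ ▸ ⟨x, rfl⟩
    obtain ⟨l, hl⟩ : (g₁⁻¹ * k) • SA c ρ ∈ Set.range (lab c ρ) := range_lab h c ρ ▸ ⟨_, rfl⟩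
    exact ⟨l, by rw [hl, mul_smul, smul_inv_smul]; exact hk⟩
  have hlow : ∀ x l, g₁ • lab c ρ l = lab c ρ x → a ≠ x → b ≠ x → l.val < 9 := by
    intro x l hl hax hbx
    by_contra hh
    rcases high_cases l hh with rfl | rfl
    exacts [hax (lab_inj h c ρ (ha.symm.trans hl)), hbx (lab_inj h c ρ (hb.symm.trans hl))]
  obtain ⟨l, hl⟩ := hmem p
  obtain ⟨m, hm⟩ := hmem q
  have hl9 := hlow p l hl hap hbp
  have hm9 := hlow q m hm haq hbq
  have hne : vec m - vec l ≠ 0 := fun e => hpq (lab_inj h c ρ (by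
    rw [← hl, ← hm, ← idx_vec l hl9, ← idx_vec m hm9, sub_eq_zero.1 e]))
  obtain ⟨M, hM, hMe⟩ := Q_regular (1, 0) (vec m - vec l) e_ne_zero hne
  refine ⟨g₁ * (c.ι (vec l) * c.q M), ?_, ?_, ?_, ?_⟩
  · rw [(lab_nine h c ρ).1, mul_smul, mul_smul, (q_SA h c ρ hM).1, (ι_SA h c ρ _).1, ha]
  · rw [(lab_nine h c ρ).2, mul_smul, mul_smul, (q_SA h c ρ hM).2, (ι_SA h c ρ _).2, hb]
  · rw [mul_smul, mul_smul, q_lab h c ρ hM, ι_lab h c ρ, ← hl]
    congr 2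
    rw [muF, if_pos (by decide), taF, if_pos (vec_idx _).2, (vec_idx _).1, vec_zero.1, ap_zero4, add_zero,
      idx_vec l hl9]
  · rw [mul_smul, mul_smul, q_lab h c ρ hM, ι_lab h c ρ, ← hm]
    congr 2
    rw [muF, if_pos (by decide), taF, if_pos (vec_idx _).2, (vec_idx _).1, vec_zero.2, hMe, add_sub_cancel,
      idx_vec m hm9]

/-- The stabilizer of three labels. -/
theorem stab_three {g : G} (h9 : g • lab c ρ 9 = lab c ρ 9) (h10 : g • lab c ρ 10 = lab c ρ 10)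
    (h0 : g • lab c ρ 0 = lab c ρ 0) : ∃ M, InQ M ∧ g = c.q M := by
  obtain ⟨-, -, mA, mB⟩ := mem_SA₁ h c ρ
  have hP : g • P = P := mem_SA_SB h c ρ
    (by rw [← show g • SA c ρ = SA c ρ from h9]; exact Set.smul_mem_smul_set mA)
    (by rw [← show g • SB c ρ = SB c ρ from h10]; exact Set.smul_mem_smul_set mB)
  obtain ⟨v, M, hM, rfl⟩ := stab_SA h c ρ hP h9
  rw [mul_smul, q_lab h c ρ hM, ι_lab h c ρ] at h0
  have e := lab_inj h c ρ h0
  rw [muF, if_pos (by decide), taF, if_pos (vec_idx _).2, (vec_idx _).1, vec_zero.1, ap_zero4, add_zero] at e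
  have hv := congrArg vec e
  rw [(vec_idx _).1, vec_zero.1] at hv
  exact ⟨M, hM, by rw [hv, c.ι_zero, one_mul]⟩

end

end CfsgLib.M11Unique
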